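import Cfsg.Agent.Huppert.Main
import Mathlib.GroupTheory.Sylow
import Mathlib.Data.Nat.Factorization.Basic

/-!
Huppert's theorem: the exceptional sizes.
-/

set_option autoImplicit false
set_option linter.style.haveILetI false
set_option linter.unusedSectionVars false

namespace CfsgLib.Huppert

open scoped commutatorElement

variable {q : ℕ} [hq : Fact q.Prime] {V : Type*} [AddCommGroup V] [Module (ZMod q) V] [Finite V] [Nontrivial V]
variable {G : Type*} [Group G] [Finite G] {ρ : Representation (ZMod q) G V}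

local notation "E" => Module.End (ZMod q) V

theorem pow_of_scalar (h : Setup ρ) {g : G} {c : ZMod q} (hg : ρ g = c • (1 : E)) : g ^ (q - 1) = 1 := by
  have hc : c ≠ 0 := fun e => by
    obtain ⟨v, hv⟩ := exists_ne (0 : V)
    exact rho_ne ρ g hv (by rw [hg, e, zero_smul]; rfl)
  refine h.inj ?_
  rw [map_pow, hg, smul_pow, one_pow, ZMod.pow_card_sub_one_eq_one hc, one_smul, map_one]

/-- The degree is one and the representatives span when the index is the square of the dimension. -/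
theorem Data.full (h : Setup ρ) {s : ℕ} [hs : Fact s.Prime] {Q : Subgroup G} (hD : Data s Q)
    (hcard : ∀ j, Nat.card Q = s ^ (2 * j) * Nat.card (zc Q) →
      s ^ (2 * j) = Module.finrank (ZMod q) V * Module.finrank (ZMod q) V) :
    s ∣ q - 1 ∧ ∀ f : E, (∀ t ∈ Q, f * ρ t = ρ t * f) → ∃ c : ZMod q, f = c • (1 : E) := by
  obtain ⟨ζ, d, j, -, -, -, hd1, -, -, hsd, -, hj, hC, hscal⟩ := hD.facts h
  have hn := hcard j hj
  have h1 := hC ⊤ le_top (fun _ _ => Algebra.mem_top)
  rw [Nat.card_congr (Subalgebra.topEquiv (R := ZMod q) (A := E)).toEquiv, card_end, ← pow_mul,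
    Nat.pow_le_pow_iff_right hq.out.one_lt, hn] at h1
  have hpos : 0 < Module.finrank (ZMod q) V * Module.finrank (ZMod q) V := hn ▸ pow_pos hs.out.pos _
  have hd : d = 1 := le_antisymm (Nat.le_of_mul_le_mul_right (by simpa using h1) hpos) hd1
  subst hd
  rw [pow_one] at hsd
  exact ⟨hsd, hscal (by rw [pow_one, card_end, hn])⟩

/-- The configuration forced by a primitive prime. -/
theorem forced (h : Setup ρ) [Group.IsSolvable G] {r : ℕ} [hr : Fact r.Prime]
    (hqr : orderOf (q : ZMod r) = Module.finrank (ZMod q) V) (hn : 2 ≤ Module.finrank (ZMod q) V) :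
    q ≠ 2 ∧ r = Module.finrank (ZMod q) V + 1 ∧ ¬ r ^ 2 ∣ Nat.card G ∧
      ∃ j : ℕ, Module.finrank (ZMod q) V = 2 ^ j := by
  classical
  set n := Module.finrank (ZMod q) V with hndef
  have hq0 : (q : ZMod r) ≠ 0 := fun e => by rw [e, orderOf_zero] at hqr; omega
  have hrn : n < r := by
    have h1 := Nat.le_of_dvd (by have := hr.out.two_le; omega) (ZMod.orderOf_dvd_card_sub_one hq0)
    have := hr.out.two_le
    omega
  have hrd : r ∣ Nat.card G := by
    have h1 : (q : ZMod r) ^ n = 1 := hqr ▸ pow_orderOf_eq_one _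
    refine Nat.dvd_trans ?_ (sub_one_dvd_card h)
    rw [card_space (q := q), ← hndef, ← ZMod.natCast_eq_zero_iff,
      Nat.cast_sub (Nat.one_le_pow _ _ hq.out.pos)]
    push_cast
    rw [h1, sub_self]
  obtain ⟨x, hx⟩ := exists_prime_orderOf_dvd_card' (G := G) r hrd
  obtain ⟨s, hs, hmove⟩ : ∃ s : ℕ, ∃ _ : Fact s.Prime, ∃ t ∈ Cfsg.pCore s G, x * t ≠ t * x := by
    by_contra hno
    push Not at hno
    obtain ⟨s, hs, hnc⟩ := exists_nonabelian_pCore h
    exact hnc fun a ha b hb => commute_of_commute_irred h.inj hx hqr (hno s hs a ha) (hno s hs b hb)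
  obtain ⟨Q, hD, hQmove⟩ := exists_moved_data h hr.out hrn hx hmove
  obtain ⟨hs2, j, hj1, hnj, hrj, hQcard, -⟩ := hD.moved h hr.out hrn hx hQmove
  subst hs2
  haveI := hD.normal
  have hfullcard : ∀ i, Nat.card Q = 2 ^ (2 * i) * Nat.card (zc Q) → 2 ^ (2 * i) = n * n := by
    intro i hi
    rw [Nat.eq_of_mul_eq_mul_right Nat.card_pos (hi.symm.trans hQcard), show n = 2 ^ j from hnj, ← pow_add, two_mul]
  obtain ⟨hq2, hscal⟩ := hD.full h hfullcard
  have hq2' : q ≠ 2 := fun e => by rw [e] at hq2; norm_num at hq2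
  refine ⟨hq2', hrj, ?_, j, hnj⟩
  have hfree : ∀ y : G, orderOf y = r → ∀ t ∈ Q, y * t = t * y → t ∈ zc Q := by
    intro y hy
    have hmove' : ∃ t ∈ Q, y * t ≠ t * y := by
      by_contra hno
      push Not at hno
      obtain ⟨c, hc⟩ := hscal (ρ y) (fun t ht => by rw [← map_mul, ← map_mul, hno t ht])
      have h1 : r ∣ q - 1 := hy ▸ orderOf_dvd_of_pow_eq_one (pow_of_scalar h hc)
      have h2 : (q : ZMod r) = 1 := by
        have h3 : ((q - 1 : ℕ) : ZMod r) = 0 := (ZMod.natCast_eq_zero_iff _ _).2 h1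
        rw [Nat.cast_sub hq.out.one_le, sub_eq_zero] at h3
        simpa using h3
      rw [h2, orderOf_one] at hqr
      omega
    exact (hD.moved h hr.out hrn hy hmove').2.choose_spec.2.2.2.2
  intro hsq
  obtain ⟨P, hP⟩ := Sylow.exists_subgroup_card_pow_prime r (G := G) (n := 2) hsq
  have hPp : IsPGroup r P := IsPGroup.of_card hP
  let X := {t : Q // (t : G) ∉ zc Q}
  letI : MulAction P X :=
    { smul := fun g t => ⟨⟨(g : G) * t.1 * (g : G)⁻¹, hD.normal.conj_mem _ t.1.2 _⟩, fun hmem => t.2 (by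
        have := Subgroup.Normal.conj_mem (zc_normal Q) _ hmem (g : G)⁻¹
        simpa [mul_assoc] using this)⟩
      one_smul := fun t => Subtype.ext (Subtype.ext (by
        show ((1 : P) : G) * (t.1 : G) * ((1 : P) : G)⁻¹ = t.1
        simp))
      mul_smul := fun g g' t => Subtype.ext (Subtype.ext (by
        show ((g * g' : P) : G) * (t.1 : G) * ((g * g' : P) : G)⁻¹ = (g : G) * ((g' : G) * t.1 * (g' : G)⁻¹) * (g : G)⁻¹
        rw [Subgroup.coe_mul]; group)) }
  have hstab : ∀ t : X, MulAction.stabilizer P t = ⊥ := by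
    intro t
    by_contra hne
    obtain ⟨k, hk⟩ := IsPGroup.iff_card.1 (hPp.to_subgroup (MulAction.stabilizer P t))
    have hd : r ∣ Nat.card (MulAction.stabilizer P t) := by
      rcases k with _ | k
      · exact absurd (Subgroup.card_eq_one.1 (by rw [hk, pow_zero])) hne
      · rw [hk]; exact dvd_pow_self r (Nat.succ_ne_zero k)
    obtain ⟨⟨g, hg⟩, hgo⟩ := exists_prime_orderOf_dvd_card' r hd
    rw [Subgroup.orderOf_mk] at hgo
    have he : (g : G) * t.1 * (g : G)⁻¹ = t.1 := congrArg (fun z : X => ((z.1 : Q) : G)) hg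
    exact t.2 (hfree (g : G) (by rw [← hgo, Subgroup.orderOf_coe]) _ t.1.2 (mul_inv_eq_iff_eq_mul.1 he))
  have hX : r ^ 2 ∣ Nat.card X := by
    rw [Nat.card_congr (MulAction.selfEquivOrbitsQuotientProd hstab), Nat.card_prod, hP]
    exact dvd_mul_left _ _
  have hXc : Nat.card X = (2 ^ (2 * j) - 1) * Nat.card (zc Q) := by
    have h1 : Nat.card X = Nat.card Q - Nat.card (zc Q) := by
      show Nat.card {t : Q // t ∈ {t : Q | (t : G) ∉ zc Q}} = _
      refine (Nat.card_coe_set_eq {t : Q | (t : G) ∉ zc Q}).trans ?_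
      rw [show {t : Q | (t : G) ∉ zc Q} = ((zc Q).subgroupOf Q : Set Q)ᶜ from rfl, Set.ncard_compl,
        ← Nat.card_coe_set_eq ((zc Q).subgroupOf Q : Set Q)]
      exact congrArg _ (Nat.card_congr (Subgroup.subgroupOfEquivOfLe inf_le_left).toEquiv)
    rw [h1, hQcard, Nat.sub_one_mul]
  rw [hXc] at hX
  obtain ⟨k, hk⟩ := IsPGroup.iff_card.1 (hD.pgroup.to_le (show zc Q ≤ Q from inf_le_left))
  have hr2 : Nat.Coprime r 2 := (Nat.coprime_primes hr.out Nat.prime_two).2 (by omega)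
  have hcop : Nat.Coprime (r ^ 2) (Nat.card (zc Q)) := by rw [hk]; exact Nat.Coprime.pow 2 k hr2
  have h4 := hcop.dvd_of_dvd_mul_right hX
  have e : 2 ^ (2 * j) - 1 = (r - 2) * r := by
    obtain ⟨c, hc⟩ : ∃ c, 2 ^ j = c + 1 := ⟨2 ^ j - 1, by have := Nat.one_le_two_pow (n := j); omega⟩
    rw [two_mul, pow_add, hrj, hnj, hc, show c + 1 + 1 - 2 = c by omega]
    rw [show (c + 1) * (c + 1) = c * (c + 1 + 1) + 1 by ring, Nat.add_sub_cancel]
  rw [e, pow_two] at h4
  have h5 : r ∣ r - 2 := Nat.dvd_of_mul_dvd_mul_right hr.out.pos h4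
  rcases Nat.eq_zero_or_pos (r - 2) with h6 | h6
  · omega
  · have := Nat.le_of_dvd h6 h5
    omega

theorem bound_exp (m : ℕ) (hm : 2 ≤ m) (h : 3 ^ m ≤ 4 * m + 1) : m = 2 := by
  by_contra hne
  have h3 : ∀ m, 3 ≤ m → 4 * m + 1 < 3 ^ m := by
    intro m hm
    induction m, hm using Nat.le_induction with
    | base => norm_num
    | succ m _ ih => rw [pow_succ]; omega
  have := h3 m (by omega)
  omega

/-- The case of a primitive prime divisor. -/
theorem caseBig (h : Setup ρ) [Group.IsSolvable G] (hn : 3 ≤ Module.finrank (ZMod q) V)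
    (h6 : ¬ (q = 2 ∧ Module.finrank (ZMod q) V = 6)) : Nat.card V = 81 := by
  classical
  set n := Module.finrank (ZMod q) V with hndef
  obtain ⟨r, hr, -, hord⟩ := CfsgLib.Zsigmondy.exists_primitive_prime hq.out.two_le hn h6
  obtain ⟨hq2, -, -, j, hj⟩ := forced h hord (by omega)
  obtain ⟨i, rfl⟩ : ∃ i, j = i + 2 := ⟨j - 2, by
    rcases j with _ | _ | j
    · simp at hj; omega
    · simp at hj; omega
    · omega⟩
  set m := 2 ^ (i + 1) with hm
  have hnm : n = m + m := by rw [show n = 2 ^ (i + 2) from hj, hm, ← two_mul, ← pow_succ']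
  have hm2 : 2 ≤ m := by rw [hm]; exact Nat.le_self_pow (by omega) 2
  have hq3 : 3 ≤ q := by have := hq.out.two_le; omega
  have hodd : Odd q := hq.out.odd_of_ne_two hq2
  set M := q ^ m + 1 with hM
  have hMG : M ∣ Nat.card G := by
    refine Nat.dvd_trans ?_ (sub_one_dvd_card h)
    rw [card_space (q := q), ← hndef, hnm, pow_add, show q ^ m * q ^ m - 1 = (q ^ m + 1) * (q ^ m - 1) by
      rw [← Nat.sq_sub_sq, one_pow, pow_two]]
    exact dvd_mul_right _ _
  have h4 : ¬ 4 ∣ M := by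
    obtain ⟨a, ha⟩ := hodd.pow (n := 2 ^ i)
    have e : M = 4 * (a * a + a) + 2 := by
      rw [hM, hm, pow_succ, pow_mul, ha]; ring
    rw [e]; omega
  have hfac : M ∣ 2 * (n + 1) := by
    rw [Nat.dvd_iff_prime_pow_dvd_dvd]
    intro p k hp hpk
    rcases k with _ | k
    · simp
    by_cases hp2 : p = 2
    · subst hp2
      rcases k with _ | k
      · simp
      · exact absurd ((show 4 ∣ 2 ^ (k + 2) from ⟨2 ^ k, by ring⟩).trans hpk) h4
    haveI : Fact p.Prime := ⟨hp⟩
    have hpM : p ∣ M := (dvd_pow_self p (Nat.succ_ne_zero k)).trans hpk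
    have hqm : (q : ZMod p) ^ m = -1 := by
      have : ((M : ℕ) : ZMod p) = 0 := (ZMod.natCast_eq_zero_iff _ _).2 hpM
      rw [hM] at this
      push_cast at this
      exact eq_neg_of_add_eq_zero_left this
    haveI : Fact (2 < p) := ⟨by have := hp.two_le; omega⟩
    have hordp : orderOf (q : ZMod p) = n := by
      rw [show n = 2 ^ (i + 2) from hj]
      haveI : Fact (Nat.Prime 2) := ⟨Nat.prime_two⟩
      refine orderOf_eq_prime_pow ?_ ?_
      · rw [← hm, hqm]; exact ZMod.neg_one_ne_one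
      · rw [show i + 1 + 1 = i + 2 from rfl, show 2 ^ (i + 2) = n from hj.symm, hnm, pow_add, hqm, neg_mul_neg, one_mul]
    obtain ⟨-, hpn, hsq, -⟩ := forced h hordp (by omega)
    rcases k with _ | k
    · rw [pow_one, hpn, ← hndef]; exact dvd_mul_left _ _
    · exact absurd (((pow_dvd_pow p (by omega : 2 ≤ k + 2)).trans hpk).trans hMG) hsq
  have hle := Nat.le_of_dvd (by omega) hfac
  have h3m : 3 ^ m ≤ q ^ m := Nat.pow_le_pow_left hq3 m
  have hmeq : m = 2 := bound_exp m hm2 (by omega)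
  rw [hM, hmeq] at hle
  have hn4 : n = 4 := by omega
  have hq9 : q = 3 := by
    by_contra hne
    have h16 : 4 ^ 2 ≤ q ^ 2 := Nat.pow_le_pow_left (by omega) 2
    omega
  rw [card_space (q := q), ← hndef, hn4, hq9]
  norm_num

/-- Dimension two. -/
theorem caseTwo (h : Setup ρ) [Group.IsSolvable G] (hn : Module.finrank (ZMod q) V = 2) :
    Nat.card V ∈ ({9, 25, 49, 121, 529, 81} : Set ℕ) := by
  classical
  obtain ⟨s, hs, hnc⟩ := exists_nonabelian_pCore h
  haveI := Components.pCore_characteristic (G := G) s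
  push Not at hnc
  have hp := Components.pCore_isPGroup (G := G) s
  obtain ⟨Q, -, hD⟩ := data_of_nonabelian (Cfsg.pCore s G) hp hnc (fun A hA _ hAc a ha t ht => by
    haveI := hA
    obtain ⟨d, hd1, hd, hdn⟩ := degree_bound h A hAc
    obtain ⟨k, hk⟩ := hp ⟨t, ht⟩
    have hk' : t ^ s ^ k = 1 := congrArg Subtype.val hk
    exact Subgroup.mem_centralizer_iff.1
      (centralizes_of_lt ρ h.trans hAc hd h.inj hs.out (by have := hs.out.two_le; omega) hk') a ha)
  obtain ⟨j, hj1, hQcard, hle⟩ := hD.pow_le h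
  rw [hn] at hle
  have hs2 : s = 2 := by have := hs.out.two_le; have := (Nat.le_self_pow (by omega) s : s ≤ s ^ j); omega
  subst hs2
  have hj : j = 1 := by
    have := (Nat.pow_le_pow_iff_right (le_refl 2)).1 (show 2 ^ j ≤ 2 ^ 1 by omega)
    omega
  subst hj
  haveI := hD.normal
  obtain ⟨hq2, hscal⟩ := hD.full h (fun i hi => by
    rw [Nat.eq_of_mul_eq_mul_right Nat.card_pos (hi.symm.trans hQcard), hn]; rfl)
  obtain ⟨ζ, d, -, hζ, hζZ, hzp, -, -, -, -, -, -, -, -⟩ := hD.facts h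
  set Z := zc Q with hZdef
  have hZQ : Z ≤ Q := inf_le_left
  have hZcentral : ∀ z ∈ Z, ∀ g : G, g * z = z * g := by
    intro z hz g
    obtain ⟨c, hc⟩ := hscal (ρ z) (fun t ht => by rw [← map_mul, ← map_mul, (mem_zc.1 hz).2 t ht])
    apply h.inj
    rw [map_mul, map_mul, hc, mul_smul_comm, smul_mul_assoc, mul_one, one_mul]
  set Z' := Z.subgroupOf Q with hZ'
  obtain ⟨a, ha, b, hb, hab⟩ := hD.noncomm
  have hZ'card : Nat.card Z' = Nat.card Z := Nat.card_congr (Subgroup.subgroupOfEquivOfLe hZQ).toEquiv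
  have hW4 : Nat.card (Q ⧸ Z') = 4 := by
    have h1 := Z'.index_mul_card
    rw [hZ'card, hQcard] at h1
    rw [← Subgroup.index_eq_card]
    simpa using Nat.eq_of_mul_eq_mul_right Nat.card_pos h1
  have hmap : ∀ g : G, Z'.map ((MulAut.conjNormal g : MulAut Q) : Q ≃* Q).toMonoidHom = Z' := by
    intro g
    ext t
    constructor
    · rintro ⟨u, hu, rfl⟩
      show ((MulAut.conjNormal g u : Q) : G) ∈ Z
      rw [MulAut.conjNormal_apply, hZcentral (u : G) hu g, mul_inv_cancel_right]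
      exact hu
    · intro ht
      refine ⟨t, ht, Subtype.ext ?_⟩
      show ((MulAut.conjNormal g t : Q) : G) = t
      rw [MulAut.conjNormal_apply, hZcentral (t : G) ht g, mul_inv_cancel_right]
  let φ : G → (Q ⧸ Z' ≃* Q ⧸ Z') := fun g => QuotientGroup.congr Z' Z' (MulAut.conjNormal g) (hmap g)
  have hφ : ∀ g (t : Q), φ g (t : Q ⧸ Z') = ((MulAut.conjNormal g t : Q) : Q ⧸ Z') := fun g t => rfl
  let perm : G → Equiv.Perm {w : Q ⧸ Z' // w ≠ 1} := fun g =>
    (φ g).toEquiv.subtypeEquiv (fun w => (map_ne_one_iff (φ g) (φ g).injective).symm)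
  let π : G →* Equiv.Perm {w : Q ⧸ Z' // w ≠ 1} := MonoidHom.mk' perm (fun g g' => by
    refine Equiv.ext fun ⟨w, hw⟩ => Subtype.ext ?_
    induction w using QuotientGroup.induction_on with
    | H t =>
      show φ (g * g') (t : Q ⧸ Z') = φ g (φ g' (t : Q ⧸ Z'))
      rw [hφ, hφ, hφ, map_mul, MulAut.mul_apply])
  have hX3 : Nat.card {w : Q ⧸ Z' // w ≠ 1} = 3 := by
    refine (Nat.card_coe_set_eq {w : Q ⧸ Z' | w ≠ 1}).trans ?_
    rw [show {w : Q ⧸ Z' | w ≠ 1} = ({1} : Set (Q ⧸ Z'))ᶜ from rfl, Set.ncard_compl, Set.ncard_singleton, hW4]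
  have hidx : π.ker.index ∣ 6 := by
    rw [Subgroup.index_ker]
    have := Subgroup.card_subgroup_dvd_card π.range
    rwa [Nat.card_perm, hX3] at this
  -- the kernel
  set K := π.ker with hK
  have hKmem : ∀ g ∈ K, ∀ t ∈ Q, t ∉ Z → g * t * g⁻¹ * t⁻¹ ∈ Z := by
    intro g hg t ht htZ
    have hne : ((⟨t, ht⟩ : Q) : Q ⧸ Z') ≠ 1 := fun e => htZ ((QuotientGroup.eq_one_iff (⟨t, ht⟩ : Q)).1 e)
    have h1 : φ g ((⟨t, ht⟩ : Q) : Q ⧸ Z') = ((⟨t, ht⟩ : Q) : Q ⧸ Z') :=
      congrArg Subtype.val (DFunLike.congr_fun (MonoidHom.mem_ker.1 hg) (⟨_, hne⟩ : {w : Q ⧸ Z' // w ≠ 1}))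
    rw [hφ] at h1
    have h2 : (((MulAut.conjNormal g ⟨t, ht⟩ : Q)⁻¹ * ⟨t, ht⟩ : Q) : G) ∈ Z := (QuotientGroup.eq (s := Z')).1 h1
    rw [Subgroup.coe_mul, Subgroup.coe_inv, MulAut.conjNormal_apply] at h2
    have h3 := inv_mem h2
    have e : (((g * t * g⁻¹)⁻¹ * t : G))⁻¹ = t⁻¹ * (g * t * g⁻¹) := by group
    rw [e] at h3
    have h4 := hZcentral _ h3 t
    rw [show g * t * g⁻¹ * t⁻¹ = t⁻¹ * (g * t * g⁻¹) by
      rw [mul_inv_eq_iff_eq_mul]
      rw [← h4]; group]
    exact h3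
  have haZ : a ∉ Z := fun e => hab ((mem_zc.1 e).2 b hb).symm
  have hbZ : b ∉ Z := fun e => hab ((mem_zc.1 e).2 a ha)
  let A := Subgroup.zpowers ζ
  have hA2 : Nat.card A = 2 := by rw [Nat.card_zpowers, hζ]
  have hval : ∀ g ∈ K, ∀ t ∈ Q, t ∉ Z → g * t * g⁻¹ * t⁻¹ ∈ A := by
    intro g hg t ht htZ
    set z := g * t * g⁻¹ * t⁻¹ with hz
    have hzZ := hKmem g hg t ht htZ
    have ht2 : t ^ 2 ∈ Z := mem_zc.2 ⟨pow_mem ht 2, fun u hu => (hD.pow_central t ht u hu).symm⟩
    have hz2 : z ^ 2 = 1 := by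
      have e1 : (z * t) * (z * t) = g * t ^ 2 * g⁻¹ := by rw [hz, pow_two]; group
      rw [hZcentral _ ht2 g, mul_inv_cancel_right, mul_assoc, ← mul_assoc t z t, hZcentral z hzZ t, mul_assoc z t t,
        ← mul_assoc, ← pow_two, ← pow_two] at e1
      exact mul_eq_right.1 e1
    by_cases hz1 : z = 1
    · rw [hz1]; exact one_mem _
    haveI : IsCyclic Z := cyclic ρ h.trans (zc_comm Q) h.inj
    have e := CfsgLib.RankOneP.zpowers_eq_of_orderOf_eq (a := (⟨ζ, hζZ⟩ : Z)) (b := (⟨z, hzZ⟩ : Z))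
      (by rw [Subgroup.orderOf_mk, Subgroup.orderOf_mk, hζ, orderOf_eq_prime hz2 hz1])
    obtain ⟨i, hi⟩ : (⟨z, hzZ⟩ : Z) ∈ Subgroup.zpowers (⟨ζ, hζZ⟩ : Z) := by
      rw [e]; exact Subgroup.mem_zpowers _
    exact ⟨i, congrArg Subtype.val hi⟩
  have hcomA : ∀ z ∈ A, ∀ g : G, g * z = z * g := fun z hz => hZcentral z ((Subgroup.zpowers_le.2 hζZ) hz)
  have hhom : ∀ (t : G), t ∈ Q → t ∉ Z → ∀ g ∈ K, ∀ g' ∈ K,
      (g * g') * t * (g * g')⁻¹ * t⁻¹ = (g * t * g⁻¹ * t⁻¹) * (g' * t * g'⁻¹ * t⁻¹) := by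
    intro t ht htZ g _ g' hg'
    have hc := hcomA _ (hval g' hg' t ht htZ)
    calc (g * g') * t * (g * g')⁻¹ * t⁻¹ = g * (g' * t * g'⁻¹ * t⁻¹) * t * g⁻¹ * t⁻¹ := by group
      _ = (g' * t * g'⁻¹ * t⁻¹) * (g * t * g⁻¹ * t⁻¹) := by rw [hc g]; group
      _ = _ := (hc _).symm
  let ω : K →* A × A := MonoidHom.mk'
    (fun g => (⟨_, hval g g.2 a ha haZ⟩, ⟨_, hval g g.2 b hb hbZ⟩))
    (fun g g' => Prod.ext (Subtype.ext (hhom a ha haZ g g.2 g' g'.2)) (Subtype.ext (hhom b hb hbZ g g.2 g' g'.2)))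
  have hker4 : ω.ker.index ∣ 4 := by
    rw [Subgroup.index_ker]
    have := Subgroup.card_subgroup_dvd_card ω.range
    rwa [Nat.card_prod, hA2] at this
  have hgenQ : ∀ g : G, g * a = a * g → g * b = b * g → ∀ t ∈ Q, g * t = t * g := by
    intro g hga hgb t ht
    let H := (Subgroup.centralizer ({g} : Set G)).subgroupOf Q
    set I := H.map (QuotientGroup.mk' Z') with hI
    have hmemI : ∀ u : Q, g * (u : G) = u * g → (u : Q ⧸ Z') ∈ I := fun u hu =>
      ⟨u, Subgroup.mem_centralizer_singleton_iff.2 hu.symm, rfl⟩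
    have h3 : 3 ≤ Nat.card I := by
      let f : Fin 3 → I := ![1, ⟨_, hmemI ⟨a, ha⟩ hga⟩, ⟨_, hmemI ⟨b, hb⟩ hgb⟩]
      have hfinj : Function.Injective f := by
        have h01 : ((⟨a, ha⟩ : Q) : Q ⧸ Z') ≠ 1 := fun e => haZ ((QuotientGroup.eq_one_iff (⟨a, ha⟩ : Q)).1 e)
        have h02 : ((⟨b, hb⟩ : Q) : Q ⧸ Z') ≠ 1 := fun e => hbZ ((QuotientGroup.eq_one_iff (⟨b, hb⟩ : Q)).1 e)
        have h12 : ((⟨a, ha⟩ : Q) : Q ⧸ Z') ≠ ((⟨b, hb⟩ : Q) : Q ⧸ Z') := fun e => hab (by
          have hz : a⁻¹ * b ∈ Z := (QuotientGroup.eq (s := Z')).1 e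
          have := (mem_zc.1 hz).2 a ha
          rw [mul_inv_cancel_left] at this
          nth_rewrite 1 [this]
          group)
        intro u v huv
        fin_cases u <;> fin_cases v <;> first
          | rfl
          | (exfalso; replace huv := congrArg Subtype.val huv; first
              | exact h01 huv | exact h01 huv.symm | exact h02 huv | exact h02 huv.symm
              | exact h12 huv | exact h12 huv.symm)
      simpa using Nat.card_le_card_of_injective f hfinj
    have h4 : Nat.card I ∣ 4 := hW4 ▸ Subgroup.card_subgroup_dvd_card I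
    have h44 : Nat.card I = 4 := by
      have := Nat.le_of_dvd (by norm_num) h4
      interval_cases hc : Nat.card I
      · norm_num at h4
      · rfl
    obtain ⟨u, hu, hut⟩ : ((⟨t, ht⟩ : Q) : Q ⧸ Z') ∈ I := by
      rw [Subgroup.eq_top_of_card_eq I (by rw [h44, hW4])]; trivial
    have hz : ((u : G))⁻¹ * t ∈ Z := (QuotientGroup.eq (s := Z')).1 hut
    have hgu : g * (u : G) = u * g := (Subgroup.mem_centralizer_singleton_iff.1 hu).symm
    calc g * t = g * (u : G) * ((u : G)⁻¹ * t) := by group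
      _ = (u : G) * (g * ((u : G)⁻¹ * t)) := by rw [hgu, mul_assoc]
      _ = (u : G) * (((u : G)⁻¹ * t) * g) := by rw [hZcentral _ hz g]
      _ = t * g := by group
  have hscal' : ∀ g : ω.ker, ∃ c : ZMod q, ρ ((g : K) : G) = c • (1 : E) := by
    intro g
    have hg := MonoidHom.mem_ker.1 g.2
    have hga : ((g : K) : G) * a * ((g : K) : G)⁻¹ * a⁻¹ = 1 := congrArg (fun p : A × A => (p.1 : G)) hg
    have hgb : ((g : K) : G) * b * ((g : K) : G)⁻¹ * b⁻¹ = 1 := congrArg (fun p : A × A => (p.2 : G)) hg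
    refine hscal _ fun t ht => ?_
    rw [← map_mul, ← map_mul]
    exact congrArg ρ (hgenQ _ (mul_inv_eq_iff_eq_mul.1 (mul_inv_eq_one.1 hga))
      (mul_inv_eq_iff_eq_mul.1 (mul_inv_eq_one.1 hgb)) t ht)
  choose cc hcc using hscal'
  have hccne : ∀ g, cc g ≠ 0 := fun g e => by
    obtain ⟨v, hv⟩ := exists_ne (0 : V)
    exact rho_ne ρ ((g : K) : G) hv (by rw [hcc g, e, zero_smul]; rfl)
  have hinj : ∀ c c' : ZMod q, c • (1 : E) = c' • (1 : E) → c = c' := fun c c' e => by
    obtain ⟨v, hv⟩ := exists_ne (0 : V)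
    exact smul_left_injective (ZMod q) hv (LinearMap.congr_fun e v)
  let χ : ω.ker →* (ZMod q)ˣ := MonoidHom.mk' (fun g => Units.mk0 (cc g) (hccne g)) (fun g g' => Units.ext ((hinj _ _ (by
    rw [← hcc, mul_smul, ← hcc g']
    rw [show (((g * g' : ω.ker) : K) : G) = ((g : K) : G) * ((g' : K) : G) from rfl, map_mul, hcc g,
      smul_mul_assoc, one_mul]) : cc (g * g') = cc g * cc g')))
  have hχ : Nat.card ω.ker ∣ q - 1 := by
    have := Subgroup.card_dvd_of_injective χ (fun g g' e => Subtype.ext (Subtype.ext (h.inj (by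
      rw [hcc g, hcc g']
      exact congrArg (· • (1 : E)) (congrArg Units.val e)))))
    rwa [Nat.card_eq_fintype_card (α := (ZMod q)ˣ), ZMod.card_units] at this
  have hG : Nat.card G ∣ 6 * (4 * (q - 1)) := by
    rw [← K.index_mul_card, ← ω.ker.index_mul_card]
    exact mul_dvd_mul hidx (mul_dvd_mul hker4 hχ)
  have hq1 : 1 ≤ q - 1 := by have := hq.out.two_le; omega
  have hdiv : q + 1 ∣ 24 := by
    have h1 := (sub_one_dvd_card h).trans hG
    rw [card_space (q := q), hn, show q ^ 2 - 1 = (q + 1) * (q - 1) by rw [← Nat.sq_sub_sq, one_pow],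
      ← mul_assoc] at h1
    exact Nat.dvd_of_mul_dvd_mul_right (by omega) h1
  have hqle : q ≤ 23 := by have := Nat.le_of_dvd (by norm_num) hdiv; omega
  have hq2' : q ≠ 2 := fun e => by rw [e] at hq2; norm_num at hq2
  rw [card_space (q := q), hn]
  have hqp := hq.out
  interval_cases q <;> first
    | omega
    | (simp; done)
    | (norm_num at hqp; done)
    | (norm_num at hdiv; done)

/-- The space with 64 vectors. -/
theorem caseSix (h : Setup ρ) [Group.IsSolvable G] (hq2 : q = 2) (hn : Module.finrank (ZMod q) V = 6) : False := by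
  classical
  subst hq2
  haveI : Fact (Nat.Prime 7) := ⟨by norm_num⟩
  have hV : Nat.card V = 64 := by rw [card_space (q := 2), hn]; rfl
  have h7 : 7 ∣ Nat.card G := Nat.dvd_trans (by norm_num) (hV ▸ sub_one_dvd_card h)
  obtain ⟨x, hx⟩ := exists_prime_orderOf_dvd_card' (G := G) 7 h7
  have hrn : Module.finrank (ZMod 2) V < 7 := by omega
  have hcen : ∀ s : ℕ, s.Prime → ∀ t ∈ Cfsg.pCore s G, x * t = t * x := by
    intro s hs t ht
    haveI : Fact s.Prime := ⟨hs⟩
    by_contra hne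
    obtain ⟨Q, hD, hQ⟩ := exists_moved_data h (Fact.out) hrn hx ⟨t, ht, hne⟩
    obtain ⟨-, j, -, hj, -⟩ := hD.moved h (Fact.out) hrn hx hQ
    rw [hn] at hj
    rcases j with _ | _ | _ | j
    · norm_num at hj
    · norm_num at hj
    · norm_num at hj
    · have : 8 ≤ 2 ^ (j + 3) := by
        calc 8 = 2 ^ 3 := rfl
          _ ≤ _ := Nat.pow_le_pow_right (by norm_num) (by omega)
      omega
  haveI := Components.fittingSubgroup_normal (G := G)
  set F := Cfsg.fittingSubgroup G with hF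
  have hxC : x ∈ Subgroup.centralizer (F : Set G) := by
    have hle : F ≤ Subgroup.centralizer ({x} : Set G) := by
      rw [hF, Components.fittingSubgroup_eq_iSup]
      exact iSup_le fun s t ht => Subgroup.mem_centralizer_singleton_iff.2
        (hcen s (Nat.prime_of_mem_primeFactors s.2) t ht).symm
    exact Subgroup.mem_centralizer_iff.2 fun t ht => Subgroup.mem_centralizer_singleton_iff.1 (hle ht)
  have hxF : x ∈ F := CfsgLib.Hall.centralizer_fitting_le hxC
  let A := zc F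
  have hxA : x ∈ A := mem_zc.2 ⟨hxF, fun t ht => Subgroup.mem_centralizer_iff.1 hxC t ht⟩
  obtain ⟨d, hd1, hd, hdn⟩ := degree_bound h A (zc_comm F)
  rw [hn] at hdn
  have hd3 : d = 3 := by
    have h1 : orderOf x ∣ Nat.card (env ρ A) - 1 := by
      letI := (env_isField ρ h.trans (zc_comm F)).toField
      haveI := Fintype.ofFinite (env ρ A)
      have hz : (⟨ρ x, mem_env ρ hxA⟩ : env ρ A) ≠ 0 := fun e => by
        obtain ⟨v, hv⟩ := exists_ne (0 : V)
        exact rho_ne ρ x hv (LinearMap.congr_fun (congrArg Subtype.val e) v)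
      rw [Nat.card_eq_fintype_card]
      refine orderOf_dvd_of_pow_eq_one (h.inj ?_)
      rw [map_pow, map_one]
      have := congrArg Subtype.val (FiniteField.pow_card_sub_one_eq_one _ hz)
      simpa using this
    rw [hx, hd] at h1
    have : d ≤ 3 := by omega
    interval_cases d <;> first | rfl | norm_num at h1
  subst hd3
  -- a nonabelian Sylow 3 core
  obtain ⟨s, hs, hnc⟩ := exists_nonabelian_pCore h
  haveI := Components.pCore_characteristic (G := G) s
  push Not at hnc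
  have hs7 : s < 7 := by
    by_contra hge
    obtain ⟨a, ha, b, hb, hab⟩ := hnc
    exact hab (pCore_abelian h (s := s) (by omega) a ha b hb)
  have hp := Components.pCore_isPGroup (G := G) s
  have hsd : ∀ (B : Subgroup G), B.Normal → (∀ a ∈ B, ∀ b ∈ B, a * b = b * a) → B ≤ Cfsg.pCore s G → B ≠ ⊥ →
      ∀ e : ℕ, Nat.card (env ρ B) = 2 ^ e → s ∣ 2 ^ e - 1 := by
    intro B hB hBc hBs hB1 e he
    haveI := hB
    obtain ⟨k, hk⟩ := IsPGroup.iff_card.1 (hp.to_le hBs)
    have hk0 : k ≠ 0 := fun e0 => hB1 (Subgroup.card_eq_one.1 (by rw [hk, e0, pow_zero]))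
    obtain ⟨b, hb⟩ := exists_prime_orderOf_dvd_card' (G := B) s (hk ▸ dvd_pow_self s hk0)
    letI := (env_isField ρ h.trans hBc).toField
    haveI := Fintype.ofFinite (env ρ B)
    have hz : (⟨ρ b, mem_env ρ b.2⟩ : env ρ B) ≠ 0 := fun e => by
      obtain ⟨v, hv⟩ := exists_ne (0 : V)
      exact rho_ne ρ (b : G) hv (LinearMap.congr_fun (congrArg Subtype.val e) v)
    rw [← he, Nat.card_eq_fintype_card, ← hb, ← Subgroup.orderOf_coe]
    refine orderOf_dvd_of_pow_eq_one (h.inj ?_)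
    rw [map_pow, map_one]
    have := congrArg Subtype.val (FiniteField.pow_card_sub_one_eq_one _ hz)
    simpa using this
  obtain ⟨Q, hQs, hD⟩ := data_of_nonabelian (Cfsg.pCore s G) hp hnc (fun B hB hBs hBc a ha t ht => by
    haveI := hB
    by_cases hB1 : B = ⊥
    · rw [hB1, Subgroup.mem_bot] at ha; rw [ha, one_mul, mul_one]
    obtain ⟨e, he1, he, hen⟩ := degree_bound h B hBc
    have hse := hsd B hB hBc hBs hB1 e he
    obtain ⟨k, hk⟩ := hp ⟨t, ht⟩
    have hk' : t ^ s ^ k = 1 := congrArg Subtype.val hk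
    refine Subgroup.mem_centralizer_iff.1 (centralizes_of_lt ρ h.trans hBc he h.inj hs.out ?_ hk') a ha
    rw [hn] at hen
    have he3 : e ≤ 3 := by omega
    have := hs.out.two_le
    interval_cases e
    · omega
    · norm_num at hse
      have := (Nat.prime_dvd_prime_iff_eq hs.out Nat.prime_three).1 hse
      omega
    · norm_num at hse
      have := (Nat.prime_dvd_prime_iff_eq hs.out (by norm_num)).1 hse
      omega)
  obtain ⟨ζ, e, j, hζ, hζZ, -, he1, hen, he, hse, hj1, -, hC, -⟩ := hD.facts h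
  rw [hn] at hen
  have hs3 : s = 3 ∧ 2 ≤ e := by
    have he3 : e ≤ 3 := by omega
    interval_cases e
    · norm_num at hse
      exact absurd hse hs.out.ne_one
    · norm_num at hse
      exact ⟨(Nat.prime_dvd_prime_iff_eq hs.out Nat.prime_three).1 hse, le_rfl⟩
    · norm_num at hse
      have := (Nat.prime_dvd_prime_iff_eq hs.out (by norm_num)).1 hse
      omega
  obtain ⟨rfl, he2⟩ := hs3
  have hQF : Q ≤ F := hQs.trans (Components.pCore_le_fittingSubgroup _)
  let C : Subalgebra (ZMod 2) (Module.End (ZMod 2) V) :=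
    Subalgebra.centralizer (ZMod 2) (env ρ A : Set (Module.End (ZMod 2) V))
  have hcomm : ∀ t ∈ F, ρ t ∈ C := fun t ht => Subalgebra.mem_centralizer_iff (R := ZMod 2) |>.2 fun g hg =>
    (env_le_centralizer ρ (fun a ha => by rw [← map_mul, ← map_mul, (mem_zc.1 ha).2 t ht]) g hg).symm
  have hzC : env ρ (zc Q) ≤ C := Algebra.adjoin_le (by
    rintro _ ⟨z, hz, rfl⟩
    exact hcomm z (hQF (mem_zc.1 hz).1))
  have hlow := hC C hzC (fun t ht => hcomm t (hQF ht))
  have hC2 : Nat.card C ≤ 64 * 64 := by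
    rw [← hV, ← Nat.card_prod]
    obtain ⟨v, hv⟩ := exists_ne (0 : V)
    have hR : Nat.card (env ρ A) = 8 := by rw [hd]; rfl
    obtain ⟨u, hu⟩ : ∃ u, ∀ a ∈ env ρ A, a v ≠ u := by
      by_contra hno
      push Not at hno
      choose f hf hfv using hno
      have := Nat.card_le_card_of_injective (fun w : V => (⟨f w, hf w⟩ : env ρ A)) (fun w w' e => by
        rw [← hfv w, ← hfv w', show f w = f w' from congrArg Subtype.val e])
      omega
    have hinj : Function.Injective (fun ab : env ρ A × env ρ A => (ab.1 : Module.End (ZMod 2) V) v + (ab.2 : Module.End (ZMod 2) V) u) := by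
      intro ⟨a, b⟩ ⟨a', b'⟩ e
      letI := (env_isField ρ h.trans (zc_comm F)).toField
      by_cases hb : b = b'
      · subst hb
        simp only [add_left_inj] at e
        exact Prod.ext (Subtype.ext (sub_eq_zero.1 (env_inj ρ h.trans (zc_comm F) (sub_mem a.2 a'.2) hv
          (by rw [LinearMap.sub_apply, sub_eq_zero]; exact e)))) rfl
      exfalso
      have hbb : b - b' ≠ 0 := sub_ne_zero.2 hb
      apply hu (((b - b')⁻¹ * (a' - a) : env ρ A) : Module.End (ZMod 2) V) (Subtype.mem _)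
      have e' : ((b - b' : env ρ A) : Module.End (ZMod 2) V) u = ((a' - a : env ρ A) : Module.End (ZMod 2) V) v := by
        simp only [Subalgebra.coe_sub, LinearMap.sub_apply]
        rw [sub_eq_sub_iff_add_eq_add, add_comm]
        exact e
      rw [Subalgebra.coe_mul, Module.End.mul_apply, ← e', ← Module.End.mul_apply, ← Subalgebra.coe_mul,
        inv_mul_cancel₀ hbb, Subalgebra.coe_one, Module.End.one_apply]
    have hsurj : ∀ w : V, ∃ ab : env ρ A × env ρ A, (ab.1 : Module.End (ZMod 2) V) v + (ab.2 : Module.End (ZMod 2) V) u = w :=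
      ((Nat.bijective_iff_injective_and_card _).2 ⟨hinj, by rw [Nat.card_prod, hR, hV]⟩).2
    refine Nat.card_le_card_of_injective (fun f : C => ((f : Module.End (ZMod 2) V) v, (f : Module.End (ZMod 2) V) u)) ?_
    intro f f' e
    simp only [Prod.mk.injEq] at e
    refine Subtype.ext (LinearMap.ext fun w => ?_)
    obtain ⟨⟨a, b⟩, rfl⟩ := hsurj w
    have hc : ∀ (g : C) (a : env ρ A) (y : V), (g : Module.End (ZMod 2) V) ((a : Module.End (ZMod 2) V) y) = (a : Module.End (ZMod 2) V) ((g : Module.End (ZMod 2) V) y) := fun g a y => by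
      rw [← Module.End.mul_apply, ← Module.End.mul_apply,
        (Subalgebra.mem_centralizer_iff (R := ZMod 2) |>.1 g.2 (a : Module.End (ZMod 2) V) a.2)]
    rw [map_add, map_add, hc, hc, hc, hc, e.1, e.2]
  have h18 : (2 ^ 2) ^ 3 ^ (2 * 1) ≤ (2 ^ e) ^ 3 ^ (2 * j) :=
    le_trans (Nat.pow_le_pow_left (Nat.pow_le_pow_right (by norm_num) he2) _)
      (Nat.pow_le_pow_right (pow_pos (by norm_num) _) (Nat.pow_le_pow_right (by norm_num) (by omega)))
  have := (h18.trans hlow).trans hC2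
  norm_num at this

/-- Huppert's theorem. -/
theorem huppert [Group.IsSolvable G] (hρ : Function.Injective ρ) (ht : Trans ρ) :
    (∃ (F : Type) (_ : Field F) (_ : Fintype F) (e : V ≃+ F),
        ∀ g : G, ∃ (a : F) (σ : F ≃+* F), ∀ v : V, e (ρ g v) = a * σ (e v)) ∨
      Nat.card V ∈ ({9, 25, 49, 121, 529, 81} : Set ℕ) := by
  classical
  by_cases hfull : ∃ A : Subgroup G, A.Normal ∧ (∀ a ∈ A, ∀ b ∈ A, a * b = b * a) ∧ Nat.card (env ρ A) = Nat.card V
  · obtain ⟨A, hA, hAc, hcard⟩ := hfull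
    haveI := hA
    exact Or.inl (semilinear ρ ht hAc hcard)
  right
  push Not at hfull
  have h : Setup ρ := ⟨hρ, ht, hfull⟩
  set n := Module.finrank (ZMod q) V with hn
  obtain ⟨d, hd1, -, hdn⟩ := degree_bound h (⊥ : Subgroup G) (by simp)
  by_cases h2 : n = 2
  · exact caseTwo h h2
  by_cases h6 : q = 2 ∧ n = 6
  · exact (caseSix h h6.1 h6.2).elim
  rw [caseBig h (by omega) h6]
  simp

end CfsgLib.Huppert
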