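import Cfsg.Agent.Huppert.Field
import Mathlib.GroupTheory.Commutator.Basic
import Mathlib.GroupTheory.SpecificGroups.Cyclic
import Mathlib.LinearAlgebra.Basis.VectorSpace
import Mathlib.Tactic.Group

/-!
Class two sections: square order and linear independence of coset representatives.
-/

set_option autoImplicit false

namespace CfsgLib.Huppert

open scoped commutatorElement

/-- A central extension with nondegenerate commutator of prime order has square index. -/
theorem exists_square {Q : Type*} [Group Q] [Finite Q] {s : ℕ} [Fact s.Prime] {ζ : Q} (hζ : orderOf ζ = s)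
    (Z : Subgroup Q) (hζZ : ζ ∈ Z) :
    ∀ (k : ℕ) (R : Subgroup Q), Nat.card R ≤ k → Z ≤ R → (∀ z ∈ Z, ∀ t ∈ R, z * t = t * z) →
      (∀ a ∈ R, ∀ b ∈ R, ⁅a, b⁆ ∈ Subgroup.zpowers ζ) →
      (∀ t ∈ R, (∀ b ∈ R, t * b = b * t) → t ∈ Z) →
      ∃ j : ℕ, Nat.card R = s ^ (2 * j) * Nat.card Z := by
  intro k
  induction k with
  | zero =>
    intro R h
    exact absurd h (not_le.2 Nat.card_pos)
  | succ k ih =>
    intro R hcard hZR hcen hcomm hnd
    by_cases hR : R ≤ Z
    · exact ⟨0, by rw [le_antisymm hR hZR]; simp⟩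
    obtain ⟨a, haR, haZ⟩ := SetLike.not_le_iff_exists.1 hR
    obtain ⟨b, hbR, hab⟩ : ∃ b ∈ R, a * b ≠ b * a := by
      by_contra h
      push Not at h
      exact haZ (hnd a haR h)
    have hcz : ∀ z ∈ Subgroup.zpowers ζ, ∀ t ∈ R, z * t = t * z := fun z hz =>
      hcen z ((Subgroup.zpowers_le.2 hζZ) hz)
    let A := Subgroup.zpowers ζ
    have hAc : ∀ x y : A, x * y = y * x := fun x y =>
      Subtype.ext (hcz x x.2 y (hZR ((Subgroup.zpowers_le.2 hζZ) y.2)))
    have hmul : ∀ c ∈ R, ∀ t ∈ R, ∀ u ∈ R, ⁅t * u, c⁆ = ⁅t, c⁆ * ⁅u, c⁆ := by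
      intro c hc t htR u huR
      have h1 := hcz _ (hcomm u huR c hc) t htR
      have h2 : ⁅u, c⁆ * ⁅t, c⁆ = ⁅t, c⁆ * ⁅u, c⁆ :=
        congrArg Subtype.val (hAc ⟨_, hcomm u huR c hc⟩ ⟨_, hcomm t htR c hc⟩)
      rw [← h2]
      calc ⁅t * u, c⁆ = t * ⁅u, c⁆ * t⁻¹ * ⁅t, c⁆ := by simp only [commutatorElement_def]; group
        _ = ⁅u, c⁆ * ⁅t, c⁆ := by rw [← h1, mul_inv_cancel_right]
    let f : R →* A × A := MonoidHom.mk' (fun t => (⟨⁅(t : Q), a⁆, hcomm t t.2 a haR⟩, ⟨⁅(t : Q), b⁆, hcomm t t.2 b hbR⟩))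
      (fun t u => Prod.ext (Subtype.ext (hmul a haR t t.2 u u.2)) (Subtype.ext (hmul b hbR t t.2 u u.2)))
    have hA : Nat.card A = s := by rw [Nat.card_zpowers, hζ]
    have hgen : ∀ x : A, x ≠ 1 → Subgroup.zpowers x = ⊤ := fun x hx => zpowers_eq_top_of_prime_card hA hx
    have hne1 : (⟨⁅b, a⁆, hcomm b hbR a haR⟩ : A) ≠ 1 := fun h => hab
      ((commutatorElement_eq_one_iff_mul_comm.1 (congrArg Subtype.val h)).symm)
    have hne2 : (⟨⁅a, b⁆, hcomm a haR b hbR⟩ : A) ≠ 1 := fun h => hab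
      (commutatorElement_eq_one_iff_mul_comm.1 (congrArg Subtype.val h))
    have hsurj : Function.Surjective f := by
      intro xy
      obtain ⟨i, hi⟩ : xy.1 ∈ Subgroup.zpowers (⟨⁅b, a⁆, hcomm b hbR a haR⟩ : A) := by
        rw [hgen _ hne1]; trivial
      obtain ⟨l, hl⟩ : xy.2 ∈ Subgroup.zpowers (⟨⁅a, b⁆, hcomm a haR b hbR⟩ : A) := by
        rw [hgen _ hne2]; trivial
      refine ⟨(⟨b, hbR⟩ : R) ^ i * (⟨a, haR⟩ : R) ^ l, ?_⟩
      have e1 : f ⟨b, hbR⟩ = (⟨⁅b, a⁆, hcomm b hbR a haR⟩, 1) := Prod.ext rfl (Subtype.ext (commutatorElement_self b))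
      have e2 : f ⟨a, haR⟩ = (1, ⟨⁅a, b⁆, hcomm a haR b hbR⟩) := Prod.ext (Subtype.ext (commutatorElement_self a)) rfl
      rw [map_mul, map_zpow, map_zpow, e1, e2, Prod.ext_iff]
      simp only [Prod.fst_mul, Prod.snd_mul, Prod.pow_fst, Prod.pow_snd, one_zpow, mul_one, one_mul]
      exact ⟨hi, hl⟩
    set R' := f.ker.map R.subtype with hR'
    have hmem : ∀ t, t ∈ R' ↔ t ∈ R ∧ t * a = a * t ∧ t * b = b * t := by
      intro t
      constructor
      · rintro ⟨u, hu, rfl⟩
        have h := MonoidHom.mem_ker.1 hu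
        exact ⟨u.2, commutatorElement_eq_one_iff_mul_comm.1 (congrArg (fun p : A × A => (p.1 : Q)) h),
          commutatorElement_eq_one_iff_mul_comm.1 (congrArg (fun p : A × A => (p.2 : Q)) h)⟩
      · rintro ⟨htR, h1, h2⟩
        exact ⟨⟨t, htR⟩, MonoidHom.mem_ker.2 (Prod.ext (Subtype.ext (commutatorElement_eq_one_iff_mul_comm.2 h1))
          (Subtype.ext (commutatorElement_eq_one_iff_mul_comm.2 h2))), rfl⟩
    have hcardR : Nat.card R = s * s * Nat.card R' := by
      rw [hR', Subgroup.card_map_of_injective R.subtype_injective, ← f.ker.index_mul_card, Subgroup.index_ker,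
        MonoidHom.range_eq_top.2 hsurj, Subgroup.card_top, Nat.card_prod, hA]
    have hlt : Nat.card R' ≤ k := by
      have : 2 * 2 ≤ s * s := Nat.mul_le_mul (Fact.out : s.Prime).two_le (Fact.out : s.Prime).two_le
      have hpos : 0 < Nat.card R' := Nat.card_pos
      nlinarith
    have hR'R : R' ≤ R := Subgroup.map_subtype_le _
    obtain ⟨j, hj⟩ := ih R' hlt (fun z hz => (hmem z).2 ⟨hZR hz, hcen z hz a haR, hcen z hz b hbR⟩)
      (fun z hz t ht => hcen z hz t (hR'R ht)) (fun x hx y hy => hcomm x (hR'R hx) y (hR'R hy)) (by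
        intro t ht hall
        obtain ⟨htR, hta, htb⟩ := (hmem t).1 ht
        refine hnd t htR fun r hr => ?_
        obtain ⟨i, hi⟩ : (f ⟨r, hr⟩).1 ∈ Subgroup.zpowers (⟨⁅b, a⁆, hcomm b hbR a haR⟩ : A) := by
          rw [hgen _ hne1]; trivial
        obtain ⟨l, hl⟩ : (f ⟨r, hr⟩).2 ∈ Subgroup.zpowers (⟨⁅a, b⁆, hcomm a haR b hbR⟩ : A) := by
          rw [hgen _ hne2]; trivial
        set u : R := (⟨b, hbR⟩ : R) ^ i * (⟨a, haR⟩ : R) ^ l with hu
        have e1 : f ⟨b, hbR⟩ = (⟨⁅b, a⁆, hcomm b hbR a haR⟩, 1) := Prod.ext rfl (Subtype.ext (commutatorElement_self b))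
        have e2 : f ⟨a, haR⟩ = (1, ⟨⁅a, b⁆, hcomm a haR b hbR⟩) := Prod.ext (Subtype.ext (commutatorElement_self a)) rfl
        have hfu : f u = f ⟨r, hr⟩ := by
          rw [hu, map_mul, map_zpow, map_zpow, e1, e2, Prod.ext_iff]
          simp only [Prod.fst_mul, Prod.snd_mul, Prod.pow_fst, Prod.pow_snd, one_zpow, mul_one, one_mul]
          exact ⟨hi, hl⟩
        have hk : ((u⁻¹ * ⟨r, hr⟩ : R) : Q) ∈ R' :=
          ⟨u⁻¹ * ⟨r, hr⟩, MonoidHom.mem_ker.2 (by rw [map_mul, map_inv, hfu, inv_mul_cancel]), rfl⟩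
        have htu : Commute t (u : Q) := by
          rw [hu, Subgroup.coe_mul, Subgroup.coe_zpow, Subgroup.coe_zpow]
          exact (Commute.zpow_right htb i).mul_right (Commute.zpow_right hta l)
        have htk : Commute t ((u⁻¹ * ⟨r, hr⟩ : R) : Q) := hall _ hk
        have h := htu.mul_right htk
        rwa [← Subgroup.coe_mul, mul_inv_cancel_left] at h)
    exact ⟨j + 1, by rw [hcardR, hj]; ring⟩

variable {q : ℕ} [Fact q.Prime] {V : Type*} [AddCommGroup V] [Module (ZMod q) V] [Finite V] [Nontrivial V]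
variable {G : Type*} [Group G] (ρ : Representation (ZMod q) G V)

local notation "E" => Module.End (ZMod q) V

/-- Representatives separated by commutators into an abelian normal subgroup are independent over its field. -/
theorem indep (hρ : Function.Injective ρ) (ht : Trans ρ) (Z : Subgroup G) [Z.Normal]
    (hZc : ∀ a ∈ Z, ∀ b ∈ Z, a * b = b * a)
    {ι : Type*} [Fintype ι] [DecidableEq ι] (T : ι → G) (S : Subgroup G) (hTS : ∀ i, T i ∈ S)
    (hcomm : ∀ y ∈ S, ∀ t ∈ S, ⁅y, t⁆ ∈ Z) (hSZ : ∀ y ∈ S, ∀ z ∈ Z, y * z = z * y)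
    (hsep : ∀ i i' : ι, i ≠ i' → ∃ y ∈ S, ⁅y, T i⁆ ≠ ⁅y, T i'⁆)
    (c : ι → env ρ Z) (hc : ∑ i, (c i : E) * ρ (T i) = 0) : c = 0 := by
  classical
  suffices h : ∀ (m : ℕ) (c : ι → E), (∀ i, c i ∈ env ρ Z) → (Finset.univ.filter fun i => c i ≠ 0).card ≤ m →
      ∑ i, c i * ρ (T i) = 0 → c = 0 by
    have := h _ (fun i => (c i : E)) (fun i => (c i).2) le_rfl hc
    exact funext fun i => Subtype.ext (congrFun this i)
  intro m
  induction m with
  | zero =>
    intro c _ hcard _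
    funext i
    by_contra hne
    have : i ∈ Finset.univ.filter fun i => c i ≠ 0 := by simpa using hne
    rw [Finset.card_eq_zero.1 (Nat.le_zero.1 hcard)] at this
    exact absurd this (Finset.notMem_empty i)
  | succ m ih =>
    intro c hcZ hcard hsum
    by_contra hne
    obtain ⟨j, hj⟩ : ∃ j, c j ≠ 0 := by
      by_contra h; push Not at h; exact hne (funext h)
    have hcent : ∀ y ∈ S, ∀ i, ρ y * c i = c i * ρ y := fun y hy i =>
      env_le_centralizer ρ (fun z hz => by rw [← map_mul, hSZ y hy z hz, map_mul]) _ (hcZ i)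
    have hstep : ∀ y ∈ S, (fun i => c i * (ρ ⁅y, T i⁆ - ρ ⁅y, T j⁆)) = 0 := by
      intro y hy
      refine ih _ (fun i => mul_mem (hcZ i) (sub_mem (mem_env ρ (hcomm y hy _ (hTS i))) (mem_env ρ (hcomm y hy _ (hTS j))))) ?_ ?_
      · refine Nat.lt_succ_iff.1 (lt_of_lt_of_le (Finset.card_lt_card ?_) hcard)
        rw [Finset.ssubset_iff_of_subset]
        · exact ⟨j, by simp [hj], by simp⟩
        · intro i
          simp only [Finset.mem_filter, Finset.mem_univ, true_and]
          exact fun h h0 => h (by rw [h0, zero_mul])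
      · have h1 : ∑ i, c i * ρ ⁅y, T i⁆ * ρ (T i) = 0 := by
          have h := congrArg (fun X => ρ y * X * ρ y⁻¹) hsum
          simp only [mul_zero, zero_mul, Finset.mul_sum, Finset.sum_mul] at h
          refine (Finset.sum_congr rfl fun i _ => ?_).trans h
          rw [← mul_assoc (ρ y), hcent y hy i, mul_assoc (c i), mul_assoc (c i), mul_assoc (c i), ← map_mul, ← map_mul,
            ← map_mul]
          congr 2
          simp only [commutatorElement_def]; group
        have h2 : ∑ i, c i * ρ ⁅y, T j⁆ * ρ (T i) = 0 := by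
          have h := congrArg (fun X => ρ ⁅y, T j⁆ * X) hsum
          simp only [mul_zero, Finset.mul_sum] at h
          refine (Finset.sum_congr rfl fun i _ => ?_).trans h
          rw [← mul_assoc, env_comm ρ hZc _ (hcZ i) _ (mem_env ρ (hcomm y hy _ (hTS j)))]
        calc ∑ i, c i * (ρ ⁅y, T i⁆ - ρ ⁅y, T j⁆) * ρ (T i)
            = ∑ i, c i * ρ ⁅y, T i⁆ * ρ (T i) - ∑ i, c i * ρ ⁅y, T j⁆ * ρ (T i) := by
              rw [← Finset.sum_sub_distrib]
              exact Finset.sum_congr rfl fun i _ => by rw [mul_sub, sub_mul]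
          _ = 0 := by rw [h1, h2, sub_zero]
    apply hj
    -- all other coefficients vanish
    have hothers : ∀ i, i ≠ j → c i = 0 := by
      intro i hij
      obtain ⟨y, hy, hne'⟩ := hsep i j hij
      rcases env_no_zero_div ρ ht hZc (hcZ i) (congrFun (hstep y hy) i) with h | h
      · exact h
      · exact absurd (hρ (sub_eq_zero.1 h)) hne'
    rw [Finset.sum_eq_single j (fun i _ hi => by rw [hothers i hi, zero_mul])
      (fun h => absurd (Finset.mem_univ j) h)] at hsum
    have := congrArg (· * ρ (T j)⁻¹) hsum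
    simpa [mul_assoc, ← map_mul] using this

/-- An endomorphism commuting with all endomorphisms is a scalar. -/
theorem scalar_of_commutes (f : E) (h : ∀ e : E, f * e = e * f) : ∃ c : ZMod q, f = c • (1 : E) := by
  let b := Module.Basis.ofVectorSpace (ZMod q) V
  obtain ⟨i⟩ := b.index_nonempty
  refine ⟨b.coord i (f (b i)), LinearMap.ext fun u => ?_⟩
  have h1 := LinearMap.congr_fun (h ((b.coord i).smulRight u)) (b i)
  simp only [Module.End.mul_apply, LinearMap.smulRight_apply, Module.Basis.coord_apply, Module.Basis.repr_self,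
    Finsupp.single_eq_same, one_smul] at h1
  rw [h1]
  rfl

end CfsgLib.Huppert
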