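import Mathlib.RingTheory.IntegralDomain
import Mathlib.FieldTheory.Fixed
import Mathlib.FieldTheory.Finite.Basic
import Mathlib.Algebra.Algebra.Subalgebra.Lattice
import Mathlib.GroupTheory.Index
import Mathlib.LinearAlgebra.Dimension.Finrank
import Mathlib.FieldTheory.Finiteness
import Mathlib.RepresentationTheory.Basic
import Mathlib.Algebra.Field.TransferInstance

/-!
Linear groups transitive on nonzero vectors: the enveloping algebra of an abelian normal subgroup is a
field, and semilinearity when it is as large as the space.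
-/

set_option autoImplicit false

namespace CfsgLib.Huppert

variable {q : ℕ} [Fact q.Prime] {V : Type*} [AddCommGroup V] [Module (ZMod q) V]
variable {G : Type*} [Group G] (ρ : Representation (ZMod q) G V)

local notation "E" => Module.End (ZMod q) V

/-- A bare carrier type for a transported field. -/
def Carrier (n : ℕ) : Type := Fin n

/-- `G` is transitive on the nonzero vectors. -/
def Trans : Prop := ∀ v w : V, v ≠ 0 → w ≠ 0 → ∃ g : G, ρ g v = w

/-- The algebra generated by a subgroup. -/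
def env (A : Subgroup G) : Subalgebra (ZMod q) E :=
  Algebra.adjoin (ZMod q) ((fun g => ρ g) '' (A : Set G))

theorem rho_mul (a b : G) (v : V) : ρ (a * b) v = ρ a (ρ b v) := by rw [map_mul]; rfl

theorem rho_inv (g : G) (v : V) : ρ g⁻¹ (ρ g v) = v := by
  rw [← rho_mul, inv_mul_cancel, map_one]; rfl

theorem rho_ne (g : G) {v : V} (hv : v ≠ 0) : ρ g v ≠ 0 := fun h => hv (by
  rw [← rho_inv ρ g v, h, map_zero])

theorem mem_env {A : Subgroup G} {a : G} (ha : a ∈ A) : ρ a ∈ env ρ A :=
  Algebra.subset_adjoin ⟨a, ha, rfl⟩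

theorem env_le_centralizer {A : Subgroup G} {f : E} (h : ∀ a ∈ A, f * ρ a = ρ a * f) :
    ∀ x ∈ env ρ A, f * x = x * f := by
  intro x hx
  have hle : env ρ A ≤ Subalgebra.centralizer (ZMod q) ({f} : Set E) := by
    refine Algebra.adjoin_le ?_
    rintro _ ⟨a, ha, rfl⟩
    rw [SetLike.mem_coe, Subalgebra.mem_centralizer_iff]
    intro g hg
    rw [Set.mem_singleton_iff.1 hg]
    exact h a ha
  exact Subalgebra.mem_centralizer_iff (R := ZMod q) |>.1 (hle hx) f rfl

theorem env_comm {A : Subgroup G} (hA : ∀ a ∈ A, ∀ b ∈ A, a * b = b * a) :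
    ∀ x ∈ env ρ A, ∀ y ∈ env ρ A, x * y = y * x := by
  intro x hx
  refine env_le_centralizer ρ fun a ha => ?_
  exact (env_le_centralizer ρ (fun b hb => by rw [← map_mul, hA a ha b hb, map_mul]) x hx).symm

theorem env_conj {A : Subgroup G} [A.Normal] (g : G) {x : E} (hx : x ∈ env ρ A) :
    ρ g * x * ρ g⁻¹ ∈ env ρ A := by
  induction hx using Algebra.adjoin_induction with
  | mem y hy =>
    obtain ⟨a, ha, rfl⟩ := hy
    rw [← map_mul, ← map_mul]
    exact mem_env ρ (Subgroup.Normal.conj_mem inferInstance a ha g)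
  | algebraMap r =>
    rw [← Algebra.commutes r (ρ g), mul_assoc, ← map_mul, mul_inv_cancel, map_one, mul_one]
    exact Subalgebra.algebraMap_mem _ r
  | add y z _ _ h1 h2 => rw [mul_add, add_mul]; exact add_mem h1 h2
  | mul y z _ _ h1 h2 =>
    have e : ρ g * (y * z) * ρ g⁻¹ = (ρ g * y * ρ g⁻¹) * (ρ g * z * ρ g⁻¹) := by
      calc ρ g * (y * z) * ρ g⁻¹ = ρ g * y * (1 * z) * ρ g⁻¹ := by rw [one_mul, mul_assoc (ρ g) y z]
        _ = ρ g * y * (ρ g⁻¹ * ρ g * z) * ρ g⁻¹ := by rw [← map_mul, inv_mul_cancel, map_one]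
        _ = _ := by simp only [mul_assoc]
    rw [e]; exact mul_mem h1 h2

instance finite_end [Finite V] : Finite E := Finite.of_injective (fun f => ⇑f) DFunLike.coe_injective

/-- A nonzero element of the enveloping algebra kills no nonzero vector. -/
theorem env_inj [Finite V] (ht : Trans ρ) {A : Subgroup G} [A.Normal]
    (hA : ∀ a ∈ A, ∀ b ∈ A, a * b = b * a) {x : E} (hx : x ∈ env ρ A) {v : V} (hv : v ≠ 0) (h : x v = 0) :
    x = 0 := by
  classical
  let ann : V → Set E := fun v => {a | a ∈ env ρ A ∧ a v = 0}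
  have hle : ∀ v w : V, v ≠ 0 → w ≠ 0 → (ann v).ncard ≤ (ann w).ncard := by
    intro v w hv hw
    obtain ⟨g, rfl⟩ := ht v w hv hw
    refine Set.ncard_le_ncard_of_injOn (fun a => ρ g * a * ρ g⁻¹) (fun a ha => ⟨env_conj ρ g ha.1, ?_⟩) ?_ (Set.toFinite _)
    · simp only [Module.End.mul_apply, rho_inv, ha.2, map_zero]
    · intro a _ b _ hab
      have e : ∀ y : E, ρ g⁻¹ * (ρ g * y * ρ g⁻¹) * ρ g = y := fun y => by
        calc ρ g⁻¹ * (ρ g * y * ρ g⁻¹) * ρ g = (ρ g⁻¹ * ρ g) * y * (ρ g⁻¹ * ρ g) := by simp only [mul_assoc]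
          _ = y := by rw [← map_mul, inv_mul_cancel, map_one, one_mul, mul_one]
      rw [← e a, ← e b]
      exact congrArg (fun y => ρ g⁻¹ * y * ρ g) hab
  have heq : ∀ v w : V, v ≠ 0 → w ≠ 0 → ann v ⊆ ann w → ann v = ann w := fun v w hv hw hs =>
    Set.eq_of_subset_of_ncard_le hs (hle w v hw hv) (Set.toFinite _)
  have key : ∀ w : V, w ≠ 0 → ann v = ann w := by
    intro w hw
    by_cases hz : ∃ b ∈ env ρ A, ∃ c ∈ env ρ A, b v = c w ∧ b v ≠ 0
    · obtain ⟨b, hb, c, hc, hbc, hne⟩ := hz
      have h1 : ann v = ann (b v) := heq _ _ hv hne fun a ha => ⟨ha.1, by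
        rw [← Module.End.mul_apply, env_comm ρ hA a ha.1 b hb, Module.End.mul_apply, ha.2, map_zero]⟩
      have h2 : ann w = ann (b v) := heq _ _ hw hne fun a ha => ⟨ha.1, by
        rw [hbc, ← Module.End.mul_apply, env_comm ρ hA a ha.1 c hc, Module.End.mul_apply, ha.2, map_zero]⟩
      exact h1.trans h2.symm
    · push Not at hz
      have hu : v + w ≠ 0 := fun e => hv (hz 1 (one_mem _) (-1) (neg_mem (one_mem _)) (by
        simpa using eq_neg_of_add_eq_zero_left e))
      have hsub : ∀ a ∈ env ρ A, a (v + w) = 0 → a v = 0 ∧ a w = 0 := fun a ha e => by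
        rw [map_add] at e
        have h0 := hz a ha (-a) (neg_mem ha) (by simpa using eq_neg_of_add_eq_zero_left e)
        exact ⟨h0, by rwa [h0, zero_add] at e⟩
      have h1 := heq _ _ hu hv fun a ha => ⟨ha.1, (hsub a ha.1 ha.2).1⟩
      have h2 := heq _ _ hu hw fun a ha => ⟨ha.1, (hsub a ha.1 ha.2).2⟩
      exact h1.symm.trans h2
  refine LinearMap.ext fun w => ?_
  by_cases hw : w = 0
  · rw [hw, map_zero, LinearMap.zero_apply]
  · exact ((key w hw) ▸ (⟨hx, h⟩ : x ∈ ann v) : x ∈ ann w).2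

theorem env_no_zero_div [Finite V] [Nontrivial V] (ht : Trans ρ) {A : Subgroup G} [A.Normal]
    (hA : ∀ a ∈ A, ∀ b ∈ A, a * b = b * a) {x y : E} (hx : x ∈ env ρ A)
    (h : x * y = 0) : x = 0 ∨ y = 0 := by
  by_cases hy : y = 0
  · exact Or.inr hy
  obtain ⟨v, hv⟩ : ∃ v, y v ≠ 0 := by
    by_contra hno; push Not at hno; exact hy (LinearMap.ext hno)
  exact Or.inl (env_inj ρ ht hA hx hv (by rw [← Module.End.mul_apply, h, LinearMap.zero_apply]))

/-- An abelian normal subgroup is semiregular. -/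
theorem semiregular [Finite V] (hρ : Function.Injective ρ) (ht : Trans ρ) {A : Subgroup G} [A.Normal]
    (hA : ∀ a ∈ A, ∀ b ∈ A, a * b = b * a) {a : G} (ha : a ∈ A) {v : V} (hv : v ≠ 0) (h : ρ a v = v) :
    a = 1 := by
  apply hρ
  rw [map_one]
  exact sub_eq_zero.1 (env_inj ρ ht hA (sub_mem (mem_env ρ ha) (one_mem _)) hv (by simp [h]))

section Field

variable [Finite V] [Nontrivial V] (ht : Trans ρ) {A : Subgroup G} [A.Normal]
  (hA : ∀ a ∈ A, ∀ b ∈ A, a * b = b * a)

include ht hA

theorem env_isField : IsField (env ρ A) := by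
  refine ⟨⟨0, 1, zero_ne_one⟩, fun a b => Subtype.ext (env_comm ρ hA a a.2 b b.2), fun {a} ha => ?_⟩
  have hinj : Function.Injective (fun b : env ρ A => a * b) := fun b c hbc => by
    have e : a * (b - c) = 0 := by rw [mul_sub, show a * b = a * c from hbc, sub_self]
    rcases env_no_zero_div ρ ht hA a.2 (congrArg Subtype.val e) with h | h
    · exact absurd (Subtype.ext h) ha
    · exact sub_eq_zero.1 (Subtype.ext h)
  exact (Finite.injective_iff_surjective.1 hinj) 1

theorem cyclic [Finite G] (hρ : Function.Injective ρ) : IsCyclic A := by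
  letI := (env_isField ρ ht hA).toField
  refine isCyclic_of_injective_ringHom
    ({ toFun := fun a => (⟨ρ a, mem_env ρ a.2⟩ : env ρ A)
       map_one' := Subtype.ext (map_one ρ)
       map_mul' := fun a b => Subtype.ext (map_mul ρ (a : G) b) } : A →* env ρ A) fun a b hab => ?_
  exact Subtype.ext (hρ (congrArg Subtype.val hab))

/-- The size of the algebra is a power of q, and either everything or at most the square root of the space. -/
theorem card_env : ∃ d : ℕ, 1 ≤ d ∧ Nat.card (env ρ A) = q ^ d ∧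
    (q ^ d = Nat.card V ∨ q ^ d * q ^ d ≤ Nat.card V) := by
  classical
  refine ⟨Module.finrank (ZMod q) (env ρ A), Module.finrank_pos, ?_, ?_⟩
  · rw [Module.natCard_eq_pow_finrank (K := ZMod q), Nat.card_zmod]
  have hc : Nat.card (env ρ A) = q ^ Module.finrank (ZMod q) (env ρ A) := by
    rw [Module.natCard_eq_pow_finrank (K := ZMod q), Nat.card_zmod]
  rw [← hc]
  obtain ⟨v, hv⟩ := exists_ne (0 : V)
  have hinj : Function.Injective (fun a : env ρ A => (a : E) v) := fun a b hab => Subtype.ext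
    (sub_eq_zero.1 (env_inj ρ ht hA (sub_mem a.2 b.2) hv (by simpa [sub_eq_zero] using hab)))
  by_cases hsurj : Function.Surjective (fun a : env ρ A => (a : E) v)
  · exact Or.inl (Nat.card_eq_of_bijective _ ⟨hinj, hsurj⟩)
  right
  simp only [Function.Surjective, not_forall, not_exists] at hsurj
  obtain ⟨u, hu⟩ := hsurj
  rw [← Nat.card_prod]
  refine Nat.card_le_card_of_injective (fun ab : env ρ A × env ρ A => (ab.1 : E) v + (ab.2 : E) u) ?_
  intro ⟨a, b⟩ ⟨a', b'⟩ h
  by_cases hb : b = b'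
  · subst hb
    simp only [add_left_inj] at h
    exact Prod.ext (hinj h) rfl
  exfalso
  letI := (env_isField ρ ht hA).toField
  have hbb : b - b' ≠ 0 := sub_ne_zero.2 hb
  apply hu ((b - b')⁻¹ * (a' - a))
  have e : ((b - b' : env ρ A) : E) u = ((a' - a : env ρ A) : E) v := by
    simp only [Subalgebra.coe_sub, LinearMap.sub_apply]
    rw [sub_eq_sub_iff_add_eq_add, add_comm]
    exact h
  show (((b - b')⁻¹ * (a' - a) : env ρ A) : E) v = u
  rw [Subalgebra.coe_mul, Module.End.mul_apply, ← e, ← Module.End.mul_apply, ← Subalgebra.coe_mul,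
    inv_mul_cancel₀ hbb, Subalgebra.coe_one, Module.End.one_apply]

/-- The centraliser of an abelian normal subgroup has index at most the degree of its field. -/
theorem centralizer_index_le [Finite G] {d : ℕ} (hd : Nat.card (env ρ A) = q ^ d) (hρ : Function.Injective ρ) :
    (Subgroup.centralizer (A : Set G)).index ≤ d := by
  classical
  letI := (env_isField ρ ht hA).toField
  let c : G → (env ρ A ≃ₐ[ZMod q] env ρ A) := fun g =>
    { toFun := fun x => ⟨ρ g * x * ρ g⁻¹, env_conj ρ g x.2⟩
      invFun := fun x => ⟨ρ g⁻¹ * x * ρ g, by simpa using env_conj ρ g⁻¹ x.2⟩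
      left_inv := fun x => Subtype.ext (by
        simp only [← mul_assoc, ← map_mul, inv_mul_cancel, map_one, one_mul]
        rw [mul_assoc, ← map_mul, inv_mul_cancel, map_one, mul_one])
      right_inv := fun x => Subtype.ext (by
        simp only [← mul_assoc, ← map_mul, mul_inv_cancel, map_one, one_mul]
        rw [mul_assoc, ← map_mul, mul_inv_cancel, map_one, mul_one])
      map_mul' := fun x y => Subtype.ext (by
        show ρ g * ((x : E) * y) * ρ g⁻¹ = (ρ g * x * ρ g⁻¹) * (ρ g * y * ρ g⁻¹)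
        simp only [mul_assoc]
        rw [← mul_assoc (ρ g⁻¹) (ρ g), ← map_mul, inv_mul_cancel, map_one, one_mul])
      map_add' := fun x y => Subtype.ext (by
        show ρ g * ((x : E) + y) * ρ g⁻¹ = _
        rw [mul_add, add_mul]; rfl)
      commutes' := fun r => Subtype.ext (by
        show ρ g * algebraMap (ZMod q) E r * ρ g⁻¹ = algebraMap (ZMod q) E r
        rw [← Algebra.commutes r (ρ g), mul_assoc, ← map_mul, mul_inv_cancel, map_one, mul_one]) }
  let φ : G →* (env ρ A ≃ₐ[ZMod q] env ρ A) := MonoidHom.mk' c fun g h => AlgEquiv.ext fun x => Subtype.ext (by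
    show ρ (g * h) * (x : E) * ρ (g * h)⁻¹ = ρ g * (ρ h * x * ρ h⁻¹) * ρ g⁻¹
    rw [mul_inv_rev, map_mul, map_mul]; simp only [mul_assoc])
  have hker : φ.ker ≤ Subgroup.centralizer (A : Set G) := by
    intro g hg
    rw [Subgroup.mem_centralizer_iff]
    intro a ha
    apply hρ
    have h := congrArg Subtype.val (DFunLike.congr_fun (MonoidHom.mem_ker.1 hg) (⟨ρ a, mem_env ρ ha⟩ : env ρ A))
    change ρ g * ρ a * ρ g⁻¹ = ρ a at h
    rw [map_mul, map_mul]
    calc ρ a * ρ g = ρ g * ρ a * ρ g⁻¹ * ρ g := by rw [h]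
      _ = ρ g * ρ a := by rw [mul_assoc (ρ g * ρ a), ← map_mul ρ g⁻¹ g, inv_mul_cancel, map_one, mul_one]
  calc (Subgroup.centralizer (A : Set G)).index ≤ φ.ker.index :=
        Nat.le_of_dvd (Nat.pos_of_ne_zero Subgroup.index_ne_zero_of_finite) (Subgroup.index_dvd_of_le hker)
    _ = Nat.card φ.range := Subgroup.index_ker φ
    _ ≤ Nat.card (env ρ A ≃ₐ[ZMod q] env ρ A) := Nat.card_le_card_of_injective _ Subtype.val_injective
    _ ≤ Module.finrank (ZMod q) (env ρ A) := by
      haveI := Fintype.ofFinite (env ρ A ≃ₐ[ZMod q] env ρ A)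
      rw [Nat.card_eq_fintype_card]
      haveI : FiniteDimensional (ZMod q) (env ρ A) := Module.Finite.of_finite
      convert AlgEquiv.card_le using 2
      exact Module.Finite.of_finite
    _ = d := by
      rw [Module.natCard_eq_pow_finrank (K := ZMod q), Nat.card_zmod] at hd
      exact Nat.pow_right_injective (Fact.out : q.Prime).two_le hd

/-- An element of prime power order for a prime exceeding the degree centralises the subgroup. -/
theorem centralizes_of_lt [Finite G] {d : ℕ} (hd : Nat.card (env ρ A) = q ^ d) (hρ : Function.Injective ρ)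
    {r k : ℕ} (hr : r.Prime) (hdr : d < r) {g : G} (hg : g ^ r ^ k = 1) :
    g ∈ Subgroup.centralizer (A : Set G) := by
  set C := Subgroup.centralizer (A : Set G)
  haveI : C.Normal := inferInstanceAs (Subgroup.centralizer (A : Set G)).Normal
  have hidx := centralizer_index_le ρ ht hA hd hρ
  have hpos : 0 < C.index := Nat.pos_of_ne_zero Subgroup.index_ne_zero_of_finite
  have hco : (r ^ k).Coprime C.index := Nat.Coprime.pow_left k
    (hr.coprime_iff_not_dvd.2 fun h => absurd ((Nat.le_of_dvd hpos h).trans hidx) (not_le.2 hdr))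
  rw [← QuotientGroup.eq_one_iff]
  refine orderOf_eq_one_iff.1 (Nat.eq_one_of_dvd_coprimes hco (orderOf_dvd_of_pow_eq_one ?_) ?_)
  · rw [← QuotientGroup.mk_pow, hg, QuotientGroup.mk_one]
  · rw [Subgroup.index_eq_card]
    exact orderOf_dvd_natCard _

/-- If the field is as large as the space then `G` is semilinear. -/
theorem semilinear (hfull : Nat.card (env ρ A) = Nat.card V) :
    ∃ (F : Type) (_ : Field F) (_ : Fintype F) (e : V ≃+ F),
      ∀ g : G, ∃ (a : F) (σ : F ≃+* F), ∀ v : V, e (ρ g v) = a * σ (e v) := by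
  classical
  letI := (env_isField ρ ht hA).toField
  obtain ⟨v, hv⟩ := exists_ne (0 : V)
  let ev : env ρ A →+ V :=
    { toFun := fun a => (a : E) v
      map_zero' := rfl
      map_add' := fun _ _ => rfl }
  have hinj : Function.Injective ev := fun a b hab => Subtype.ext
    (sub_eq_zero.1 (env_inj ρ ht hA (sub_mem a.2 b.2) hv
      (by rw [LinearMap.sub_apply, sub_eq_zero]; exact hab)))
  have hbij : Function.Bijective ev := (Nat.bijective_iff_injective_and_card ev).2 ⟨hinj, hfull⟩
  let eR : V ≃+ env ρ A := (AddEquiv.ofBijective ev hbij).symm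
  let eF : Carrier (Nat.card (env ρ A)) ≃ env ρ A := (Finite.equivFin _).symm
  letI instF : Field (Carrier (Nat.card (env ρ A))) := eF.field
  let rF : Carrier (Nat.card (env ρ A)) ≃+* env ρ A := eF.ringEquiv
  refine ⟨_, instF, Fintype.ofEquiv (Fin (Nat.card (env ρ A))) (Equiv.refl _), eR.trans rF.symm.toAddEquiv, fun g => ?_⟩
  let σ : env ρ A ≃+* env ρ A :=
    { toFun := fun x => ⟨ρ g * x * ρ g⁻¹, env_conj ρ g x.2⟩
      invFun := fun x => ⟨ρ g⁻¹ * x * ρ g, by simpa using env_conj ρ g⁻¹ x.2⟩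
      left_inv := fun x => Subtype.ext (by
        simp only [← mul_assoc, ← map_mul, inv_mul_cancel, map_one, one_mul]
        rw [mul_assoc, ← map_mul, inv_mul_cancel, map_one, mul_one])
      right_inv := fun x => Subtype.ext (by
        simp only [← mul_assoc, ← map_mul, mul_inv_cancel, map_one, one_mul]
        rw [mul_assoc, ← map_mul, mul_inv_cancel, map_one, mul_one])
      map_mul' := fun x y => Subtype.ext (by
        show ρ g * ((x : E) * y) * ρ g⁻¹ = (ρ g * x * ρ g⁻¹) * (ρ g * y * ρ g⁻¹)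
        simp only [mul_assoc]
        rw [← mul_assoc (ρ g⁻¹) (ρ g), ← map_mul, inv_mul_cancel, map_one, one_mul])
      map_add' := fun x y => Subtype.ext (by
        show ρ g * ((x : E) + y) * ρ g⁻¹ = _
        rw [mul_add, add_mul]; rfl) }
  refine ⟨rF.symm (eR (ρ g v)), (rF.trans σ).trans rF.symm, fun w => ?_⟩
  show rF.symm (eR (ρ g w)) = rF.symm (eR (ρ g v)) * rF.symm (σ (rF (rF.symm (eR w))))
  rw [RingEquiv.apply_symm_apply, ← map_mul, mul_comm]
  congr 1
  apply (AddEquiv.ofBijective ev hbij).injective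
  rw [AddEquiv.apply_symm_apply]
  show ρ g w = ((σ (eR w) : env ρ A) : E) (((eR (ρ g v) : env ρ A) : E) v)
  rw [show ((eR (ρ g v) : env ρ A) : E) v = ρ g v from (AddEquiv.ofBijective ev hbij).apply_symm_apply _]
  show ρ g w = (ρ g * ((eR w : env ρ A) : E) * ρ g⁻¹) (ρ g v)
  rw [Module.End.mul_apply, Module.End.mul_apply, rho_inv,
    show ((eR w : env ρ A) : E) v = w from (AddEquiv.ofBijective ev hbij).apply_symm_apply _]

end Field

end CfsgLib.Huppert
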