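import Cfsg.Agent.Huppert.ClassTwo
import Cfsg.Agent.Components.Cores
import Cfsg.Agent.Hall.Fitting
import Cfsg.Agent.RankOneP.Basic
import Cfsg.Agent.CoprimeAction.Frattini
import Cfsg.Agent.NumTheory.Zsigmondy
import Mathlib.GroupTheory.Frattini
import Mathlib.GroupTheory.PGroup
import Mathlib.GroupTheory.GroupAction.Quotient
import Mathlib.GroupTheory.Perm.Basic

/-!
Solvable groups transitive on nonzero vectors (Huppert).
-/

set_option autoImplicit false
set_option linter.style.haveILetI false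
set_option linter.unusedSectionVars false

namespace CfsgLib.Huppert

open scoped commutatorElement

variable {q : ℕ} [hq : Fact q.Prime] {V : Type*} [AddCommGroup V] [Module (ZMod q) V] [Finite V] [Nontrivial V]
variable {G : Type*} [Group G] [Finite G] (ρ : Representation (ZMod q) G V)

local notation "E" => Module.End (ZMod q) V

/-- The hypotheses: faithful, transitive, no abelian normal subgroup generating a field as large as the space. -/
structure Setup : Prop where
  inj : Function.Injective ρ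
  trans : Trans ρ
  small : ∀ A : Subgroup G, A.Normal → (∀ a ∈ A, ∀ b ∈ A, a * b = b * a) → Nat.card (env ρ A) ≠ Nat.card V

variable {ρ}

theorem card_space : Nat.card V = q ^ Module.finrank (ZMod q) V := by
  rw [Module.natCard_eq_pow_finrank (K := ZMod q), Nat.card_zmod]

theorem card_end : Nat.card E = q ^ (Module.finrank (ZMod q) V * Module.finrank (ZMod q) V) := by
  rw [Module.natCard_eq_pow_finrank (K := ZMod q), Nat.card_zmod, Module.finrank_linearMap]

theorem sub_one_dvd_card (h : Setup ρ) : Nat.card V - 1 ∣ Nat.card G := by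
  classical
  letI : MulAction G V :=
    { smul := fun g v => ρ g v
      one_smul := fun v => by show ρ 1 v = v; rw [map_one]; rfl
      mul_smul := fun g g' v => rho_mul ρ g g' v }
  obtain ⟨v, hv⟩ := exists_ne (0 : V)
  have e : MulAction.orbit G v = {w : V | w ≠ 0} := by
    ext w
    constructor
    · rintro ⟨g, rfl⟩; exact rho_ne ρ g hv
    · exact fun hw => (h.trans v w hv hw)
  have hc : Nat.card (MulAction.orbit G v) = Nat.card V - 1 := by
    rw [e, Nat.card_coe_set_eq, show {w : V | w ≠ 0} = ({0} : Set V)ᶜ from rfl, Set.ncard_compl, Set.ncard_singleton]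
  rw [← hc, Nat.card_congr (MulAction.orbitEquivQuotientStabilizer G v), ← Subgroup.index_eq_card]
  exact Subgroup.index_dvd_card _

theorem degree_bound (h : Setup ρ) (A : Subgroup G) [A.Normal] (hA : ∀ a ∈ A, ∀ b ∈ A, a * b = b * a) :
    ∃ d : ℕ, 1 ≤ d ∧ Nat.card (env ρ A) = q ^ d ∧ d + d ≤ Module.finrank (ZMod q) V := by
  obtain ⟨d, hd1, hd, hor⟩ := card_env ρ h.trans hA
  refine ⟨d, hd1, hd, ?_⟩
  rcases hor with he | hle
  · exact absurd (hd.trans he) (h.small A inferInstance hA)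
  · rw [← pow_add, card_space (q := q)] at hle
    exact (Nat.pow_le_pow_iff_right hq.out.one_lt).1 hle

theorem card_lt_env (h : Setup ρ) (A : Subgroup G) [A.Normal] (hA : ∀ a ∈ A, ∀ b ∈ A, a * b = b * a)
    {d : ℕ} (hd : Nat.card (env ρ A) = q ^ d) : Nat.card A ≤ q ^ d - 1 := by
  classical
  have hne : ∀ a : A, (⟨ρ a, mem_env ρ a.2⟩ : env ρ A) ≠ 0 := fun a e => by
    obtain ⟨v, hv⟩ := exists_ne (0 : V)
    exact rho_ne ρ (a : G) hv (LinearMap.congr_fun (congrArg Subtype.val e) v)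
  have hz : Nat.card {x : env ρ A // x ≠ 0} = q ^ d - 1 := by
    rw [← hd]
    refine (Nat.card_coe_set_eq {x : env ρ A | x ≠ 0}).trans ?_
    rw [show {x : env ρ A | x ≠ 0} = ({0} : Set (env ρ A))ᶜ from rfl, Set.ncard_compl, Set.ncard_singleton]
  rw [← hz]
  exact Nat.card_le_card_of_injective (fun a => (⟨_, hne a⟩ : {x : env ρ A // x ≠ 0}))
    fun a b hab => Subtype.ext (h.inj (congrArg (fun x => ((x.1 : env ρ A) : E)) hab))

theorem exists_nonabelian_pCore (h : Setup ρ) [Group.IsSolvable G] :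
    ∃ s : ℕ, ∃ _ : Fact s.Prime, ¬ ∀ a ∈ Cfsg.pCore s G, ∀ b ∈ Cfsg.pCore s G, a * b = b * a := by
  by_contra hno
  push Not at hno
  haveI := Components.fittingSubgroup_normal (G := G)
  set F := Cfsg.fittingSubgroup G with hF
  have hFF : F ≤ Subgroup.centralizer (F : Set G) := by
    rw [hF, Components.fittingSubgroup_eq_iSup]
    refine iSup_le fun s => Subgroup.le_centralizer_iff.1 (iSup_le fun s' => ?_)
    haveI : Fact (s : ℕ).Prime := ⟨Nat.prime_of_mem_primeFactors s.2⟩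
    haveI : Fact (s' : ℕ).Prime := ⟨Nat.prime_of_mem_primeFactors s'.2⟩
    intro x hx
    rw [Subgroup.mem_centralizer_iff]
    intro y hy
    by_cases hss : (s : ℕ) = s'
    · rw [← hss] at hx
      exact hno s inferInstance y hy x hx
    · haveI := Components.pCore_characteristic (G := G) s
      haveI := Components.pCore_characteristic (G := G) s'
      exact (Subgroup.commute_of_normal_of_disjoint _ _ inferInstance inferInstance
        (IsPGroup.disjoint_of_ne (s : ℕ) s' hss _ _ (Components.pCore_isPGroup _) (Components.pCore_isPGroup _)) y x hy hx).eq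
  have hA : ∀ a ∈ F, ∀ b ∈ F, a * b = b * a := fun a ha b hb => (Subgroup.mem_centralizer_iff.1 (hFF ha) b hb).symm
  obtain ⟨d, hd1, hd, hdn⟩ := degree_bound h F hA
  have hCF : Subgroup.centralizer (F : Set G) = F := le_antisymm CfsgLib.Hall.centralizer_fitting_le hFF
  have h1 := centralizer_index_le ρ h.trans hA hd h.inj
  rw [hCF] at h1
  have h2 := card_lt_env h F hA hd
  have h3 : Nat.card G ≤ (q ^ d - 1) * d := by
    rw [← F.card_mul_index]
    exact Nat.mul_le_mul h2 h1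
  have h4 : q ^ (d + d) - 1 ≤ Nat.card G := by
    refine le_trans (Nat.sub_le_sub_right (Nat.pow_le_pow_right hq.out.pos hdn) 1) ?_
    rw [← card_space (V := V) (q := q)]
    exact Nat.le_of_dvd Nat.card_pos (sub_one_dvd_card h)
  have h5 : d < q ^ d := Nat.lt_pow_self hq.out.one_lt
  rw [pow_add] at h4
  obtain ⟨m, hm⟩ : ∃ m, q ^ d = m + 1 := ⟨q ^ d - 1, by omega⟩
  rw [hm] at h3 h4 h5
  simp only [Nat.add_sub_cancel] at h3
  have h6 : (m + 1) * (m + 1) - 1 = m * m + 2 * m := by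
    rw [show (m + 1) * (m + 1) = m * m + 2 * m + 1 by ring]; rfl
  rw [h6] at h4
  nlinarith

variable (ρ) in
/-- A nonabelian normal `s`-subgroup with central Frattini subgroup. -/
structure Data (s : ℕ) (Q : Subgroup G) : Prop where
  normal : Q.Normal
  pgroup : IsPGroup s Q
  noncomm : ∃ a ∈ Q, ∃ b ∈ Q, a * b ≠ b * a
  comm_central : ∀ a ∈ Q, ∀ b ∈ Q, ∀ t ∈ Q, ⁅a, b⁆ * t = t * ⁅a, b⁆
  pow_central : ∀ a ∈ Q, ∀ t ∈ Q, a ^ s * t = t * a ^ s

/-- The centre of `Q`. -/
def zc (Q : Subgroup G) : Subgroup G := Q ⊓ Subgroup.centralizer (Q : Set G)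

theorem mem_zc {Q : Subgroup G} {z : G} : z ∈ zc Q ↔ z ∈ Q ∧ ∀ t ∈ Q, t * z = z * t := by
  simp [zc, Subgroup.mem_centralizer_iff]

instance zc_normal (Q : Subgroup G) [Q.Normal] : (zc Q).Normal :=
  inferInstanceAs (Q ⊓ Subgroup.centralizer (Q : Set G)).Normal

theorem zc_comm (Q : Subgroup G) : ∀ a ∈ zc Q, ∀ b ∈ zc Q, a * b = b * a :=
  fun a ha b hb => ((mem_zc.1 ha).2 b (mem_zc.1 hb).1).symm

/-- Basic consequences: commutators in a group of order s, square index, independence bound. -/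
theorem Data.facts (h : Setup ρ) {s : ℕ} [hs : Fact s.Prime] {Q : Subgroup G} (hD : Data s Q) :
    ∃ (ζ : G) (d j : ℕ), orderOf ζ = s ∧ ζ ∈ zc Q ∧ (∀ a ∈ Q, ∀ b ∈ Q, ⁅a, b⁆ ∈ Subgroup.zpowers ζ) ∧
      1 ≤ d ∧ d + d ≤ Module.finrank (ZMod q) V ∧ Nat.card (env ρ (zc Q)) = q ^ d ∧ s ∣ q ^ d - 1 ∧
      1 ≤ j ∧ Nat.card Q = s ^ (2 * j) * Nat.card (zc Q) ∧
      (∀ C : Subalgebra (ZMod q) E, env ρ (zc Q) ≤ C → (∀ t ∈ Q, ρ t ∈ C) → (q ^ d) ^ s ^ (2 * j) ≤ Nat.card C) ∧
      ((q ^ d) ^ s ^ (2 * j) = Nat.card E → ∀ f : E, (∀ t ∈ Q, f * ρ t = ρ t * f) → ∃ c : ZMod q, f = c • (1 : E)) := by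
  classical
  haveI := hD.normal
  set Z := zc Q with hZ
  have hZc := zc_comm Q
  have hsp := (Fact.out : s.Prime)
  obtain ⟨a, ha, b, hb, hab⟩ := hD.noncomm
  have hcZ : ∀ x ∈ Q, ∀ y ∈ Q, ⁅x, y⁆ ∈ Z := fun x hx y hy => mem_zc.2
    ⟨by rw [commutatorElement_def]; exact mul_mem (mul_mem (mul_mem hx hy) (inv_mem hx)) (inv_mem hy),
      fun t ht => (hD.comm_central x hx y hy t ht).symm⟩
  have hcs : ∀ x ∈ Q, ∀ y ∈ Q, ⁅x, y⁆ ^ s = 1 := by
    intro x hx y hy
    have hcx : Commute ⁅x, y⁆ x := hD.comm_central x hx y hy x hx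
    have hkey : ∀ k : ℕ, ⁅x ^ k, y⁆ = ⁅x, y⁆ ^ k := by
      intro k
      induction k with
      | zero => simp [commutatorElement_def]
      | succ k ih =>
        calc ⁅x ^ (k + 1), y⁆ = x * ⁅x ^ k, y⁆ * x⁻¹ * ⁅x, y⁆ := by
              rw [pow_succ']; simp only [commutatorElement_def]; group
          _ = ⁅x, y⁆ ^ k * ⁅x, y⁆ := by rw [ih, ← (hcx.pow_left k).eq, mul_inv_cancel_right]
          _ = _ := (pow_succ _ _).symm
    rw [← hkey]
    exact commutatorElement_eq_one_iff_mul_comm.2 (hD.pow_central x hx y hy)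
  set ζ := ⁅a, b⁆ with hζdef
  have hζ1 : ζ ≠ 1 := fun e => hab (commutatorElement_eq_one_iff_mul_comm.1 e)
  have hζ : orderOf ζ = s := orderOf_eq_prime (hcs a ha b hb) hζ1
  haveI : IsCyclic Z := cyclic ρ h.trans hZc h.inj
  have hzp : ∀ x ∈ Q, ∀ y ∈ Q, ⁅x, y⁆ ∈ Subgroup.zpowers ζ := by
    intro x hx y hy
    by_cases h1 : ⁅x, y⁆ = 1
    · rw [h1]; exact one_mem _
    have e := CfsgLib.RankOneP.zpowers_eq_of_orderOf_eq (a := (⟨ζ, hcZ a ha b hb⟩ : Z)) (b := (⟨⁅x, y⁆, hcZ x hx y hy⟩ : Z))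
      (by rw [Subgroup.orderOf_mk, Subgroup.orderOf_mk, hζ, orderOf_eq_prime (hcs x hx y hy) h1])
    obtain ⟨i, hi⟩ : (⟨⁅x, y⁆, hcZ x hx y hy⟩ : Z) ∈ Subgroup.zpowers (⟨ζ, hcZ a ha b hb⟩ : Z) := by
      rw [e]; exact Subgroup.mem_zpowers _
    exact ⟨i, congrArg Subtype.val hi⟩
  obtain ⟨d, hd1, hd, hdn⟩ := degree_bound h Z hZc
  have hsd : s ∣ q ^ d - 1 := by
    letI := (env_isField ρ h.trans hZc).toField
    haveI := Fintype.ofFinite (env ρ Z)
    have hz : (⟨ρ ζ, mem_env ρ (hcZ a ha b hb)⟩ : env ρ Z) ≠ 0 := fun e => by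
      obtain ⟨v, hv⟩ := exists_ne (0 : V)
      exact rho_ne ρ ζ hv (LinearMap.congr_fun (congrArg Subtype.val e) v)
    have ho : orderOf (⟨ρ ζ, mem_env ρ (hcZ a ha b hb)⟩ : env ρ Z) = s := by
      refine orderOf_eq_prime (Subtype.ext ?_) fun e => hζ1 (h.inj ?_)
      · show (ρ ζ) ^ s = 1
        rw [← map_pow, hcs a ha b hb, map_one]
      · rw [map_one]; exact congrArg Subtype.val e
    rw [← ho, ← hd, Nat.card_eq_fintype_card]
    exact orderOf_dvd_of_pow_eq_one (FiniteField.pow_card_sub_one_eq_one _ hz)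
  have hZQ : Z ≤ Q := inf_le_left
  obtain ⟨j, hj⟩ := exists_square hζ Z (hcZ a ha b hb) (Nat.card Q) Q le_rfl hZQ
    (fun z hz t ht => ((mem_zc.1 hz).2 t ht).symm) hzp (fun t ht hall => mem_zc.2 ⟨ht, fun u hu => (hall u hu).symm⟩)
  have hj1 : 1 ≤ j := by
    by_contra hj0
    obtain rfl : j = 0 := by omega
    simp only [mul_zero, pow_zero, one_mul] at hj
    have e : Z = Q := Subgroup.eq_of_le_of_card_ge hZQ hj.le
    exact hab ((mem_zc.1 (e ▸ hb : b ∈ Z)).2 a ha)
  let Z' := Z.subgroupOf Q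
  haveI := Fintype.ofFinite (Q ⧸ Z')
  have hι : Fintype.card (Q ⧸ Z') = s ^ (2 * j) := by
    have h1 := Z'.index_mul_card
    rw [Nat.card_congr (Subgroup.subgroupOfEquivOfLe hZQ).toEquiv, hj] at h1
    rw [← Nat.card_eq_fintype_card, ← Subgroup.index_eq_card]
    exact Nat.eq_of_mul_eq_mul_right Nat.card_pos h1
  let T : Q ⧸ Z' → G := fun i => (i.out : G)
  have hsep : ∀ i i' : Q ⧸ Z', i ≠ i' → ∃ y ∈ Q, ⁅y, T i⁆ ≠ ⁅y, T i'⁆ := by
    intro i i' hne
    by_contra hno
    push Not at hno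
    apply hne
    rw [← QuotientGroup.out_eq' i, ← QuotientGroup.out_eq' i', QuotientGroup.eq]
    show ((i.out⁻¹ * i'.out : Q) : G) ∈ Z
    refine mem_zc.2 ⟨(i.out⁻¹ * i'.out).2, fun y hy => ?_⟩
    have e := hno y hy
    simp only [T, commutatorElement_def] at e
    rw [Subgroup.coe_mul, Subgroup.coe_inv]
    have hz1 := ((mem_zc.1 (hcZ y hy _ (i.out).2)).2 (i.out : G) (i.out).2)
    rw [commutatorElement_def] at hz1
    calc y * ((i.out : G)⁻¹ * (i'.out : G))
        = (i.out : G)⁻¹ * ((i.out : G) * (y * (i.out : G)⁻¹ * y⁻¹)) * (y * (i'.out : G) * y⁻¹ * (i'.out : G)⁻¹) * (i'.out : G) * y := by group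
      _ = (i.out : G)⁻¹ * ((i.out : G) * (y * (i.out : G)⁻¹ * y⁻¹)) * (y * (i.out : G) * y⁻¹ * (i.out : G)⁻¹) * (i'.out : G) * y := by rw [← e]
      _ = (i.out : G)⁻¹ * ((i.out : G) * (y * (i.out : G)⁻¹ * y⁻¹) * (y * (i.out : G) * y⁻¹ * (i.out : G)⁻¹)) * (i'.out : G) * y := by group
      _ = _ := by group
  have hinj : Function.Injective (fun c : (Q ⧸ Z') → env ρ Z => ∑ i, (c i : E) * ρ (T i)) := by
    intro c c' hcc
    have h0 := indep ρ h.inj h.trans Z hZc T Q (fun i => (i.out).2) hcZ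
      (fun y hy z hz => (mem_zc.1 hz).2 y hy) hsep (fun i => c i - c' i) (by
        simp only [Subalgebra.coe_sub, sub_mul, Finset.sum_sub_distrib]
        exact sub_eq_zero.2 hcc)
    exact funext fun i => sub_eq_zero.1 (congrFun h0 i)
  have hcardfun : Nat.card ((Q ⧸ Z') → env ρ Z) = (q ^ d) ^ s ^ (2 * j) := by
    rw [Nat.card_fun, hd, Nat.card_eq_fintype_card, hι]
  refine ⟨ζ, d, j, hζ, hcZ a ha b hb, hzp, hd1, hdn, hd, hsd, hj1, hj, fun C hC hCQ => ?_, fun heq f hf => ?_⟩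
  · rw [← hcardfun]
    refine Nat.card_le_card_of_injective
      (fun c => (⟨∑ i, (c i : E) * ρ (T i), sum_mem fun i _ => mul_mem (hC (c i).2) (hCQ _ (i.out).2)⟩ : C)) ?_
    exact fun c c' hcc => hinj (congrArg Subtype.val hcc)
  · refine scalar_of_commutes f fun e => ?_
    obtain ⟨c, rfl⟩ := ((Nat.bijective_iff_injective_and_card _).2 ⟨hinj, hcardfun.trans heq⟩).2 e
    simp only [Finset.mul_sum, Finset.sum_mul]
    refine Finset.sum_congr rfl fun i _ => ?_
    rw [← mul_assoc, env_le_centralizer ρ (fun z hz => hf z (hZQ hz)) _ (c i).2, mul_assoc, hf _ (i.out).2, mul_assoc]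

/-- Consequence: `s ^ j ≤ n`. -/
theorem Data.pow_le (h : Setup ρ) {s : ℕ} [hs : Fact s.Prime] {Q : Subgroup G} (hD : Data s Q) :
    ∃ j : ℕ, 1 ≤ j ∧ Nat.card Q = s ^ (2 * j) * Nat.card (zc Q) ∧ s ^ j ≤ Module.finrank (ZMod q) V := by
  obtain ⟨ζ, d, j, -, -, -, hd1, -, -, -, hj1, hj, hC, -⟩ := hD.facts h
  refine ⟨j, hj1, hj, ?_⟩
  have h1 := hC ⊤ le_top (fun _ _ => Algebra.mem_top)
  rw [Nat.card_congr (Subalgebra.topEquiv (R := ZMod q) (A := E)).toEquiv, card_end, ← pow_mul,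
    Nat.pow_le_pow_iff_right hq.out.one_lt, mul_comm 2 j, pow_mul] at h1
  have h2 : (s ^ j) ^ 2 ≤ Module.finrank (ZMod q) V * Module.finrank (ZMod q) V :=
    (Nat.le_mul_of_pos_left _ hd1).trans h1
  rw [pow_two] at h2
  exact Nat.mul_self_le_mul_self_iff.1 h2

/-- A minimal normal subgroup with a property not shared by its Frattini subgroup. -/
theorem exists_minimal_normal {s : ℕ} [Fact s.Prime] (P : Subgroup G → Prop) (Q : Subgroup G) [Q.Normal]
    (hQp : IsPGroup s Q) (hQ : P Q) (hbot : ¬ P ⊥) :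
    ∃ (H : Subgroup G) (D : Subgroup G), H ≤ Q ∧ H.Normal ∧ IsPGroup s H ∧ P H ∧ D.Normal ∧ D ≤ H ∧ ¬ P D ∧
      (∀ a ∈ H, a ^ s ∈ D) ∧ (∀ a ∈ H, ∀ b ∈ H, ⁅a, b⁆ ∈ D) ∧
      ∀ K : Subgroup G, K.Normal → K ≤ H → K ≠ H → ¬ P K := by
  obtain ⟨H, ⟨hHn, hHQ, hPH⟩, hmin⟩ := Set.Finite.exists_minimal
    (s := {H : Subgroup G | H.Normal ∧ H ≤ Q ∧ P H}) (Set.toFinite _) ⟨Q, inferInstance, le_rfl, hQ⟩
  haveI := hHn
  have hmin' : ∀ K : Subgroup G, K.Normal → K ≤ H → K ≠ H → ¬ P K := fun K hK hKH hne hPK =>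
    hne (le_antisymm hKH (hmin ⟨hK, hKH.trans hHQ, hPK⟩ hKH))
  have hHp : IsPGroup s H := hQp.to_le hHQ
  have hne : frattini H ≠ ⊤ := by
    have hH1 : H ≠ ⊥ := fun e => hbot (e ▸ hPH)
    haveI : Nontrivial H := (Subgroup.nontrivial_iff_ne_bot H).2 hH1
    obtain ⟨M, hM, -⟩ := (eq_top_or_exists_le_coatom (⊥ : Subgroup H)).resolve_left bot_ne_top
    exact fun e => hM.1 (top_le_iff.1 (e ▸ frattini_le_coatom hM))
  have hDn : ((frattini H).map H.subtype).Normal := Components.map_subtype_normal hHn _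
  have hDne : (frattini H).map H.subtype ≠ H := fun e => hne (by
    refine Subgroup.map_injective H.subtype_injective (e.trans ?_)
    rw [← MonoidHom.range_eq_map, H.range_subtype])
  refine ⟨H, _, hHQ, hHn, hHp, hPH, hDn, Subgroup.map_subtype_le _, hmin' _ hDn (Subgroup.map_subtype_le _) hDne,
    fun a ha => ⟨⟨a, ha⟩ ^ s, CfsgLib.CoprimeAction.pow_mem_frattini hHp _, rfl⟩, fun a ha b hb => ?_, hmin'⟩
  exact ⟨⁅(⟨a, ha⟩ : H), ⟨b, hb⟩⁆, CfsgLib.CoprimeAction.commutator_le_frattini' hHp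
    (Subgroup.commutator_mem_commutator (Subgroup.mem_top _) (Subgroup.mem_top _)), rfl⟩

/-- A nonabelian normal `s`-subgroup centralising each of its abelian normal subgroups gives data. -/
theorem data_of_nonabelian {s : ℕ} [Fact s.Prime] (Q : Subgroup G) [Q.Normal] (hQp : IsPGroup s Q)
    (hQ : ∃ a ∈ Q, ∃ b ∈ Q, a * b ≠ b * a)
    (hcen : ∀ A : Subgroup G, A.Normal → A ≤ Q → (∀ a ∈ A, ∀ b ∈ A, a * b = b * a) →
      ∀ a ∈ A, ∀ t ∈ Q, a * t = t * a) :
    ∃ H : Subgroup G, H ≤ Q ∧ Data s H := by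
  obtain ⟨H, D, hHQ, hHn, hHp, hPH, hDn, hDH, hPD, hpow, hcomm, -⟩ := exists_minimal_normal
    (fun H => ∃ a ∈ H, ∃ b ∈ H, a * b ≠ b * a) Q hQp hQ
    (by rintro ⟨a, ha, b, hb, hab⟩; rw [Subgroup.mem_bot] at ha hb; exact hab (by rw [ha, hb]))
  push Not at hPD
  have h := hcen D hDn (hDH.trans hHQ) hPD
  exact ⟨H, hHQ, hHn, hHp, hPH, fun a ha b hb t ht => h _ (hcomm a ha b hb) t (hHQ ht),
    fun a ha t ht => h _ (hpow a ha) t (hHQ ht)⟩

/-- `O_s` is abelian for primes exceeding the dimension. -/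
theorem pCore_abelian (h : Setup ρ) {s : ℕ} [hs : Fact s.Prime] (hsn : Module.finrank (ZMod q) V < s) :
    ∀ a ∈ Cfsg.pCore s G, ∀ b ∈ Cfsg.pCore s G, a * b = b * a := by
  by_contra hno
  push Not at hno
  haveI := Components.pCore_characteristic (G := G) s
  have hp := Components.pCore_isPGroup (G := G) s
  obtain ⟨H, -, hD⟩ := data_of_nonabelian (Cfsg.pCore s G) hp hno (fun A hA hAQ hAc a ha t ht => by
    haveI := hA
    obtain ⟨d, -, hd, hdn⟩ := degree_bound h A hAc
    obtain ⟨k, hk⟩ := hp ⟨t, ht⟩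
    have hk' : t ^ s ^ k = 1 := congrArg Subtype.val hk
    exact Subgroup.mem_centralizer_iff.1 (centralizes_of_lt ρ h.trans hAc hd h.inj hs.out (by omega) hk') a ha)
  obtain ⟨j, hj1, -, hle⟩ := hD.pow_le h
  have : s ≤ s ^ j := Nat.le_self_pow (by omega) _
  omega

/-- An element of large prime order centralises abelian normal subgroups. -/
theorem centralizes_abelian (h : Setup ρ) {r : ℕ} (hr : r.Prime) (hrn : Module.finrank (ZMod q) V < r) {x : G}
    (hx : orderOf x = r) (A : Subgroup G) [A.Normal] (hA : ∀ a ∈ A, ∀ b ∈ A, a * b = b * a) :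
    x ∈ Subgroup.centralizer (A : Set G) := by
  obtain ⟨d, -, hd, hdn⟩ := degree_bound h A hA
  exact centralizes_of_lt ρ h.trans hA hd h.inj hr (k := 1) (by omega) (by rw [pow_one, ← hx]; exact pow_orderOf_eq_one x)

/-- An element of large prime order moving some `O_s` gives data moved by it. -/
theorem exists_moved_data (h : Setup ρ) {r : ℕ} (hr : r.Prime) (hrn : Module.finrank (ZMod q) V < r) {x : G}
    (hx : orderOf x = r) {s : ℕ} [hs : Fact s.Prime] (hmove : ∃ t ∈ Cfsg.pCore s G, x * t ≠ t * x) :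
    ∃ Q : Subgroup G, Data s Q ∧ ∃ t ∈ Q, x * t ≠ t * x := by
  haveI := Components.pCore_characteristic (G := G) s
  have hsr : s ≠ r := by
    rintro rfl
    obtain ⟨t, ht, hne⟩ := hmove
    exact hne (Subgroup.mem_centralizer_iff.1
      (centralizes_abelian h hr hrn hx (Cfsg.pCore s G) (pCore_abelian h hrn)) t ht).symm
  obtain ⟨H, D, -, hHn, hHp, hPH, hDn, hDH, hPD, hpow, hcomm, hmin⟩ := exists_minimal_normal
    (fun H => ∃ t ∈ H, x * t ≠ t * x) (Cfsg.pCore s G) (Components.pCore_isPGroup s) hmove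
    (by rintro ⟨t, ht, hne⟩; rw [Subgroup.mem_bot] at ht; exact hne (by rw [ht, mul_one, one_mul]))
  push Not at hPD
  haveI := hHn
  haveI := hDn
  have hHD : ∀ t ∈ H, ∀ u ∈ D, t * u = u * t := by
    by_contra hno
    obtain ⟨t₀, ht₀, hne⟩ := hPH
    set C := H ⊓ Subgroup.centralizer (D : Set G) with hC
    have hCne : C ≠ H := fun e => hno fun t ht u hu =>
      (Subgroup.mem_centralizer_iff.1 (e ▸ ht : t ∈ C).2 u hu).symm
    have hCx := hmin C inferInstance inf_le_left hCne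
    push Not at hCx
    apply hne
    have hxH : x * t₀ * x⁻¹ ∈ H := hHn.conj_mem t₀ ht₀ x
    set c := t₀⁻¹ * (x * t₀ * x⁻¹) with hc
    have hcC : c ∈ C := by
      refine Subgroup.mem_inf.2 ⟨H.mul_mem (H.inv_mem ht₀) hxH, Subgroup.mem_centralizer_iff.2 fun u hu => ?_⟩
      have hxu : x * u = u * x := hPD u hu
      have hu' : t₀ * u * t₀⁻¹ ∈ D := hDn.conj_mem u hu t₀
      have hxu' : x * (t₀ * u * t₀⁻¹) = (t₀ * u * t₀⁻¹) * x := hPD _ hu'
      symm
      calc c * u = t₀⁻¹ * (x * t₀ * (x⁻¹ * u)) := by rw [hc]; group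
        _ = t₀⁻¹ * (x * t₀ * (u * x⁻¹)) := by
            rw [show x⁻¹ * u = u * x⁻¹ from ((Commute.inv_left (hxu : Commute x u)) : Commute x⁻¹ u).eq]
        _ = t₀⁻¹ * (x * (t₀ * u * t₀⁻¹)) * t₀ * x⁻¹ := by group
        _ = t₀⁻¹ * ((t₀ * u * t₀⁻¹) * x) * t₀ * x⁻¹ := by rw [hxu']
        _ = u * c := by rw [hc]; group
    have hxc : x * c = c * x := hCx c hcC
    have hit : ∀ i : ℕ, x ^ i * t₀ * (x ^ i)⁻¹ = t₀ * c ^ i := by
      intro i
      induction i with
      | zero => simp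
      | succ i ih =>
        have hci : x * c ^ i * x⁻¹ = c ^ i := by
          rw [((show Commute x c from hxc).pow_right i).eq, mul_inv_cancel_right]
        calc x ^ (i + 1) * t₀ * (x ^ (i + 1))⁻¹ = x * (x ^ i * t₀ * (x ^ i)⁻¹) * x⁻¹ := by
              rw [pow_succ']; group
          _ = (x * t₀ * x⁻¹) * (x * c ^ i * x⁻¹) := by rw [ih]; group
          _ = t₀ * c * c ^ i := by rw [hci, hc]; group
          _ = t₀ * c ^ (i + 1) := by rw [pow_succ', mul_assoc]
    have hcr : c ^ r = 1 := by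
      have := hit r
      rw [← hx, pow_orderOf_eq_one] at this
      simpa [hx] using this.symm
    obtain ⟨k, hk⟩ := hHp ⟨c, hcC.1⟩
    have hk' : c ^ s ^ k = 1 := congrArg Subtype.val hk
    have := pow_gcd_eq_one.mpr ⟨hcr, hk'⟩
    rw [(Nat.Coprime.pow_right k ((Nat.coprime_primes hr hs.out).2 (Ne.symm hsr))).gcd_eq_one, pow_one, hc,
      inv_mul_eq_one] at this
    exact (mul_inv_eq_iff_eq_mul.1 this.symm)
  refine ⟨H, ⟨hHn, hHp, ?_, fun a ha b hb t ht => (hHD t ht _ (hcomm a ha b hb)).symm,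
    fun a ha t ht => (hHD t ht _ (hpow a ha)).symm⟩, hPH⟩
  by_contra hab
  push Not at hab
  obtain ⟨t, ht, hne⟩ := hPH
  exact hne (Subgroup.mem_centralizer_iff.1 (centralizes_abelian h hr hrn hx H hab) t ht).symm

/-- An element of large prime order moving data: everything is forced. -/
theorem Data.moved (h : Setup ρ) {r : ℕ} (hr : r.Prime) (hrn : Module.finrank (ZMod q) V < r) {y : G}
    (hy : orderOf y = r) {s : ℕ} [hs : Fact s.Prime] {Q : Subgroup G} (hD : Data s Q)
    (hmove : ∃ t ∈ Q, y * t ≠ t * y) :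
    s = 2 ∧ ∃ j : ℕ, 1 ≤ j ∧ Module.finrank (ZMod q) V = 2 ^ j ∧ r = Module.finrank (ZMod q) V + 1 ∧
      Nat.card Q = 2 ^ (2 * j) * Nat.card (zc Q) ∧ ∀ t ∈ Q, y * t = t * y → t ∈ zc Q := by
  classical
  haveI := hD.normal
  haveI : Fact r.Prime := ⟨hr⟩
  obtain ⟨ζ, d, j, hζ, hζZ, hzp, -, -, -, -, hj1, hj, -, -⟩ := hD.facts h
  obtain ⟨j', -, hj', hle⟩ := hD.pow_le h
  have hjj : j' = j := by
    have e := Nat.eq_of_mul_eq_mul_right Nat.card_pos (hj'.symm.trans hj)
    have := Nat.pow_right_injective hs.out.two_le e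
    omega
  subst hjj
  set Z := zc Q with hZdef
  have hZc := zc_comm Q
  have hZQ : Z ≤ Q := inf_le_left
  have hsj : s ≤ s ^ j' := Nat.le_self_pow (by omega) _
  have hsr : s ≠ r := by omega
  have hyZ : ∀ z ∈ Z, y * z = z * y := fun z hz =>
    (Subgroup.mem_centralizer_iff.1 (centralizes_abelian h hr hrn hy Z hZc) z hz).symm
  have hcZ : ∀ a ∈ Q, ∀ b ∈ Q, ⁅a, b⁆ ∈ Z := fun a ha b hb => (Subgroup.zpowers_le.2 hζZ) (hzp a ha b hb)
  set Z' := Z.subgroupOf Q with hZ'
  have hW : ∀ a b : Q ⧸ Z', a * b = b * a := by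
    intro a b
    induction a using QuotientGroup.induction_on with
    | H a =>
      induction b using QuotientGroup.induction_on with
      | H b =>
        rw [← QuotientGroup.mk_mul, ← QuotientGroup.mk_mul, QuotientGroup.eq]
        show (((a * b)⁻¹ * (b * a) : Q) : G) ∈ Z
        have e : (((a * b)⁻¹ * (b * a) : Q) : G) = ⁅(b : G)⁻¹, (a : G)⁻¹⁆ := by
          simp only [Subgroup.coe_mul, Subgroup.coe_inv, commutatorElement_def]; group
        rw [e]; exact hcZ _ (inv_mem b.2) _ (inv_mem a.2)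
  let cy : Q → Q := fun t => ⟨y * t * y⁻¹, hD.normal.conj_mem t t.2 y⟩
  let d0 : Q →* Q ⧸ Z' := MonoidHom.mk' (fun t => ((t⁻¹ * cy t : Q) : Q ⧸ Z')) (fun a b => by
    have e : cy (a * b) = cy a * cy b := Subtype.ext (by
      simp only [cy, Subgroup.coe_mul]; group)
    rw [e, mul_inv_rev, QuotientGroup.mk_mul, QuotientGroup.mk_mul, QuotientGroup.mk_mul, QuotientGroup.mk_mul,
      QuotientGroup.mk_mul]
    rw [hW (((b⁻¹ : Q) : Q ⧸ Z')) ((a⁻¹ : Q) : Q ⧸ Z'), mul_assoc ((a⁻¹ : Q) : Q ⧸ Z'),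
      ← mul_assoc ((b⁻¹ : Q) : Q ⧸ Z'), hW ((b⁻¹ : Q) : Q ⧸ Z') ((cy a : Q) : Q ⧸ Z')]
    simp only [mul_assoc])
  let ψ : Q ⧸ Z' →* Q ⧸ Z' := QuotientGroup.lift Z' d0 (fun t ht => MonoidHom.mem_ker.2 (by
    show ((t⁻¹ * cy t : Q) : Q ⧸ Z') = 1
    have e : cy t = t := Subtype.ext (by
      show y * (t : G) * y⁻¹ = t
      rw [hyZ (t : G) ht, mul_inv_cancel_right])
    rw [e, inv_mul_cancel]; rfl))
  -- iterates of conjugation
  have hfix : ∀ t u : Q, (t⁻¹ * cy t : Q) = u → y * (u : G) = (u : G) * y → u = 1 := by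
    intro t u hu hcu
    have e : y * (t : G) * y⁻¹ = t * u := by rw [← hu]; simp [cy]
    have hit : ∀ i : ℕ, y ^ i * (t : G) * (y ^ i)⁻¹ = t * (u : G) ^ i := by
      intro i
      induction i with
      | zero => simp
      | succ i ih =>
        have hci : y * (u : G) ^ i * y⁻¹ = (u : G) ^ i := by
          rw [((show Commute y (u : G) from hcu).pow_right i).eq, mul_inv_cancel_right]
        calc y ^ (i + 1) * (t : G) * (y ^ (i + 1))⁻¹ = y * (y ^ i * t * (y ^ i)⁻¹) * y⁻¹ := by rw [pow_succ']; group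
          _ = (y * t * y⁻¹) * (y * (u : G) ^ i * y⁻¹) := by rw [ih]; group
          _ = t * (u : G) ^ (i + 1) := by rw [hci, e, pow_succ', mul_assoc]
    have hur : u ^ r = 1 := by
      apply Subtype.ext
      have := hit r
      rw [← hy, pow_orderOf_eq_one] at this
      simpa [hy] using this.symm
    obtain ⟨k, hk⟩ := hD.pgroup u
    have := pow_gcd_eq_one.mpr ⟨hur, hk⟩
    rwa [(Nat.Coprime.pow_right k ((Nat.coprime_primes hr hs.out).2 (Ne.symm hsr))).gcd_eq_one, pow_one] at this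
  have hkerfix : ∀ t : Q, ψ (t : Q ⧸ Z') = 1 → y * (t : G) = t * y := by
    intro t ht
    have hz : ((t⁻¹ * cy t : Q) : G) ∈ Z := (QuotientGroup.eq_one_iff (t⁻¹ * cy t)).1 ht
    have := hfix t _ rfl (hyZ _ hz)
    rw [inv_mul_eq_one] at this
    exact mul_inv_eq_iff_eq_mul.1 (congrArg Subtype.val this.symm)
  have hψψ : ∀ w, ψ (ψ w) = 1 → ψ w = 1 := by
    intro w hw
    induction w using QuotientGroup.induction_on with
    | H t =>
      have h1 := hkerfix (t⁻¹ * cy t) hw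
      exact (congrArg (fun u : Q => (u : Q ⧸ Z')) (hfix t _ rfl h1) : _)
  have hsurj : ∀ w, ∃ w' ∈ ψ.range, ψ w' = ψ w := by
    intro w
    let g : ψ.range → ψ.range := fun u => ⟨ψ u, _, rfl⟩
    have hg : Function.Injective g := by
      rintro ⟨_, a, rfl⟩ ⟨_, b, rfl⟩ hab
      have h1 : ψ (ψ (a⁻¹ * b)) = 1 := by
        rw [map_mul, map_mul, map_inv, map_inv, show ψ (ψ a) = ψ (ψ b) from congrArg Subtype.val hab, inv_mul_cancel]
      refine Subtype.ext ?_
      have h2 := hψψ _ h1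
      rwa [map_mul, map_inv, inv_mul_eq_one] at h2
    obtain ⟨⟨w', hw'⟩, he⟩ := Finite.injective_iff_surjective.1 hg ⟨ψ w, w, rfl⟩
    exact ⟨w', hw', congrArg Subtype.val he⟩
  set R' : Subgroup Q := ψ.range.comap (QuotientGroup.mk' Z') with hR'
  set R : Subgroup G := R'.map Q.subtype with hR
  have hRQ : R ≤ Q := Subgroup.map_subtype_le _
  have hZR : Z ≤ R := fun z hz => ⟨⟨z, hZQ hz⟩, by
    show ((⟨z, hZQ hz⟩ : Q) : Q ⧸ Z') ∈ ψ.range
    have e : ((⟨z, hZQ hz⟩ : Q) : Q ⧸ Z') = 1 := (QuotientGroup.eq_one_iff _).2 hz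
    rw [e]; exact one_mem _, rfl⟩
  have hRC : ∀ a ∈ R, ∀ c ∈ Q, y * c = c * y → a * c = c * a := by
    rintro _ ⟨a, ⟨w, hw⟩, rfl⟩ c hc hcy
    induction w using QuotientGroup.induction_on with
    | H t =>
      have hz : (((t⁻¹ * cy t)⁻¹ * a : Q) : G) ∈ Z := (QuotientGroup.eq (s := Z')).1
        (show ((t⁻¹ * cy t : Q) : Q ⧸ Z') = (a : Q ⧸ Z') from hw)
      have hu : ((t⁻¹ * cy t : Q) : G) * c = c * ((t⁻¹ * cy t : Q) : G) := by
        have e1 : y * ⁅(t : G), c⁆ * y⁻¹ = ⁅(t : G), c⁆ := by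
          rw [hyZ _ (hcZ _ t.2 _ hc), mul_inv_cancel_right]
        have e2 : y * ⁅(t : G), c⁆ * y⁻¹ = ⁅y * (t : G) * y⁻¹, c⁆ := by
          have : y * c * y⁻¹ = c := by rw [hcy, mul_inv_cancel_right]
          conv_rhs => rw [← this]
          simp only [commutatorElement_def]; group
        have e3 := e2.symm.trans e1
        simp only [commutatorElement_def, mul_left_inj] at e3
        show (t : G)⁻¹ * (y * t * y⁻¹) * c = c * ((t : G)⁻¹ * (y * t * y⁻¹))
        calc (t : G)⁻¹ * (y * t * y⁻¹) * c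
            = (t : G)⁻¹ * (y * t * y⁻¹ * c * (y * t * y⁻¹)⁻¹) * (y * t * y⁻¹) := by group
          _ = (t : G)⁻¹ * ((t : G) * c * (t : G)⁻¹) * (y * t * y⁻¹) := by rw [e3]
          _ = _ := by group
      show (a : G) * c = c * a
      have hz2 := (mem_zc.1 hz).2 c hc
      calc (a : G) * c = ((t⁻¹ * cy t : Q) : G) * ((((t⁻¹ * cy t)⁻¹ * a : Q) : G) * c) := by
            simp only [Subgroup.coe_mul, Subgroup.coe_inv]; group
        _ = (((t⁻¹ * cy t : Q) : G) * c) * (((t⁻¹ * cy t)⁻¹ * a : Q) : G) := by rw [← hz2, mul_assoc]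
        _ = c * a := by rw [hu]; simp only [Subgroup.coe_mul, Subgroup.coe_inv]; group
  have hsplit : ∀ t ∈ Q, ∃ a ∈ R, ∃ c ∈ Q, y * c = c * y ∧ t = a * c := by
    intro t ht
    obtain ⟨w', hw', he⟩ := hsurj ((⟨t, ht⟩ : Q) : Q ⧸ Z')
    induction w' using QuotientGroup.induction_on with
    | H a =>
      refine ⟨a, ⟨a, hw', rfl⟩, ((a⁻¹ * ⟨t, ht⟩ : Q) : G), (a⁻¹ * ⟨t, ht⟩ : Q).2,
        hkerfix _ (by rw [QuotientGroup.mk_mul, QuotientGroup.mk_inv, map_mul, map_inv, he, inv_mul_cancel]), by simp⟩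
  have hRfix : ∀ a ∈ R, y * a = a * y → a ∈ Z := by
    rintro _ ⟨a, ha, rfl⟩ hay
    obtain ⟨w, hw⟩ := ha
    have h1 : ψ (a : Q ⧸ Z') = 1 := by
      show ((a⁻¹ * cy a : Q) : Q ⧸ Z') = 1
      have e : cy a = a := Subtype.ext (by
        show y * (a : G) * y⁻¹ = a
        rw [mul_inv_eq_iff_eq_mul]; exact hay)
      rw [e, inv_mul_cancel]; rfl
    have h2 : (a : Q ⧸ Z') = 1 := by
      have hw' : ψ w = (a : Q ⧸ Z') := hw
      rw [← hw'] at h1 ⊢
      exact hψψ w h1
    exact (QuotientGroup.eq_one_iff a).1 h2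
  have hRy : ∀ a ∈ R, y * a * y⁻¹ ∈ R := by
    rintro _ ⟨a, ⟨w, hw⟩, rfl⟩
    refine ⟨cy a, ?_, rfl⟩
    show ((cy a : Q) : Q ⧸ Z') ∈ ψ.range
    have e : ((cy a : Q) : Q ⧸ Z') = (a : Q ⧸ Z') * ψ (a : Q ⧸ Z') := by
      show ((cy a : Q) : Q ⧸ Z') = (a : Q ⧸ Z') * ((a⁻¹ * cy a : Q) : Q ⧸ Z')
      rw [← QuotientGroup.mk_mul, mul_inv_cancel_left]
    rw [e]
    exact mul_mem ⟨w, hw⟩ ⟨_, rfl⟩
  -- R is nondegenerate
  have hRnd : ∀ a ∈ R, (∀ b ∈ R, a * b = b * a) → a ∈ Z := by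
    intro a ha hall
    refine mem_zc.2 ⟨hRQ ha, fun t ht => ?_⟩
    obtain ⟨b, hb, c, hc, hcy, rfl⟩ := hsplit t ht
    rw [mul_assoc, ← hRC a ha c hc hcy, ← mul_assoc, ← hall b hb, mul_assoc]
  obtain ⟨j₁, hj₁⟩ := exists_square hζ Z hζZ (Nat.card R) R le_rfl hZR
    (fun z hz t ht => ((mem_zc.1 hz).2 t (hRQ ht)).symm) (fun a ha b hb => hzp a (hRQ ha) b (hRQ hb)) hRnd
  have hj₁pos : 1 ≤ j₁ := by
    by_contra h0
    obtain rfl : j₁ = 0 := by omega
    simp only [mul_zero, pow_zero, one_mul] at hj₁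
    have e : Z = R := Subgroup.eq_of_le_of_card_ge hZR hj₁.le
    obtain ⟨t, ht, hne⟩ := hmove
    obtain ⟨a, ha, c, -, hcy, rfl⟩ := hsplit t ht
    have hay := hyZ a (e ▸ ha)
    exact hne (by rw [← mul_assoc, hay, mul_assoc, hcy, mul_assoc])
  -- counting modulo r
  letI : MulAction (Subgroup.zpowers y) R :=
    { smul := fun g a => ⟨(g : G) * a * (g : G)⁻¹, by
        have hpow : ∀ k : ℕ, ∀ b ∈ R, y ^ k * b * (y ^ k)⁻¹ ∈ R := by
          intro k
          induction k with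
          | zero => intro b hb; simpa using hb
          | succ k ih =>
            intro b hb
            have := hRy _ (ih b hb)
            convert this using 1
            rw [pow_succ']; group
        obtain ⟨k, hk⟩ := (mem_powers_iff_mem_zpowers.2 g.2 : (g : G) ∈ Submonoid.powers y)
        rw [← hk]
        exact hpow k _ a.2⟩
      one_smul := fun a => Subtype.ext (by show ((1 : Subgroup.zpowers y) : G) * (a : G) * _ = _; simp)
      mul_smul := fun g g' a => Subtype.ext (by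
        show ((g * g' : Subgroup.zpowers y) : G) * (a : G) * _ = (g : G) * ((g' : G) * a * (g' : G)⁻¹) * (g : G)⁻¹
        rw [Subgroup.coe_mul]; group) }
  have hyp : IsPGroup r (Subgroup.zpowers y) := IsPGroup.of_card (n := 1) (by rw [Nat.card_zpowers, hy, pow_one])
  have hcardfix : Nat.card (MulAction.fixedPoints (Subgroup.zpowers y) R) = Nat.card Z := by
    refine Nat.card_congr
      { toFun := fun a => ⟨((a.1 : R) : G), hRfix _ a.1.2 (mul_inv_eq_iff_eq_mul.1
          (congrArg Subtype.val (a.2 ⟨y, Subgroup.mem_zpowers y⟩)))⟩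
        invFun := fun z => ⟨⟨z, hZR z.2⟩, fun g => Subtype.ext (by
          show (g : G) * (z : G) * (g : G)⁻¹ = z
          obtain ⟨k, hk⟩ := g.2
          have hk' : y ^ k = (g : G) := hk
          rw [← hk', mul_inv_eq_iff_eq_mul]
          exact ((show Commute y (z : G) from hyZ z z.2).zpow_left k).eq)⟩
        left_inv := fun _ => rfl
        right_inv := fun _ => rfl }
  have hmod := hyp.card_modEq_card_fixedPoints R
  rw [hcardfix, hj₁] at hmod
  have hcop : Nat.Coprime r (Nat.card Z) := by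
    obtain ⟨k, hk⟩ := IsPGroup.iff_card.1 (hD.pgroup.to_le hZQ)
    rw [hk]
    exact Nat.Coprime.pow_right k ((Nat.coprime_primes hr hs.out).2 (Ne.symm hsr))
  have hdvd : r ∣ s ^ (2 * j₁) - 1 := by
    have h1 : r ∣ s ^ (2 * j₁) * Nat.card Z - Nat.card Z :=
      (Nat.modEq_iff_dvd' (Nat.le_mul_of_pos_left _ (pow_pos hs.out.pos _))).1 hmod.symm
    rw [← Nat.sub_one_mul] at h1
    exact hcop.dvd_of_dvd_mul_right h1
  have hrle : r ≤ s ^ j₁ + 1 := by
    have h1 : 1 < s ^ j₁ := Nat.one_lt_pow (by omega) hs.out.one_lt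
    rw [mul_comm 2 j₁, pow_mul, show 1 = 1 ^ 2 from rfl, Nat.sq_sub_sq] at hdvd
    rcases hr.dvd_mul.1 hdvd with h2 | h2
    · exact Nat.le_of_dvd (by omega) h2
    · exact (Nat.le_of_dvd (by omega) h2).trans (by omega)
  have hj₁j : j₁ ≤ j' := by
    have h1 : s ^ (2 * j₁) * Nat.card Z ≤ s ^ (2 * j') * Nat.card Z := by
      rw [← hj₁, ← hj']; exact Subgroup.card_le_of_le hRQ
    have := (Nat.pow_le_pow_iff_right hs.out.one_lt).1 (Nat.le_of_mul_le_mul_right h1 Nat.card_pos)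
    omega
  have hsle : s ^ j₁ ≤ s ^ j' := Nat.pow_le_pow_right hs.out.pos hj₁j
  have heq : r = s ^ j' + 1 := by omega
  have hs2 : s = 2 := by
    rcases hs.out.eq_two_or_odd' with h2 | h2
    · exact h2
    · exfalso
      have he : Even r := heq ▸ (h2.pow).add_one
      have := (Nat.Prime.even_iff hr).1 he
      have := hs.out.two_le
      omega
  have hj1eq : j₁ = j' := Nat.pow_right_injective hs.out.two_le (by omega : s ^ j₁ = s ^ j')
  have hRQeq : R = Q := Subgroup.eq_of_le_of_card_ge hRQ (by rw [hj₁, hj', hj1eq])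
  subst hs2
  refine ⟨rfl, j', hj1, by omega, by omega, hj', fun t ht hty => ?_⟩
  exact hRfix t (hRQeq.symm ▸ ht) hty

/-- An element of order r with `q` of order `n` modulo r acts irreducibly: its centraliser is abelian. -/
theorem commute_of_commute_irred {r : ℕ} [Fact r.Prime] {x : G} (hρ : Function.Injective ρ) (hx : orderOf x = r)
    (hqr : orderOf (q : ZMod r) = Module.finrank (ZMod q) V)
    {y y' : G} (hy : x * y = y * x) (hy' : x * y' = y' * x) : y * y' = y' * y := by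
  classical
  have key : ∀ U : Submodule (ZMod q) V, (∀ u ∈ U, ρ x u ∈ U) → (∀ u ∈ U, ρ x u = u → u = 0) →
      Module.finrank (ZMod q) U = 0 ∨ Module.finrank (ZMod q) U = Module.finrank (ZMod q) V := by
    intro U hU hfix
    letI : MulAction (Subgroup.zpowers x) U :=
      { smul := fun g u => ⟨ρ (g : G) u, by
          have hpow : ∀ k : ℕ, ∀ w ∈ U, ρ (x ^ k) w ∈ U := by
            intro k
            induction k with
            | zero => intro w hw; rw [pow_zero, map_one]; exact hw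
            | succ k ih => intro w hw; rw [pow_succ', rho_mul]; exact hU _ (ih w hw)
          obtain ⟨k, hk⟩ := (mem_powers_iff_mem_zpowers.2 g.2 : (g : G) ∈ Submonoid.powers x)
          rw [← hk]; exact hpow k _ u.2⟩
        one_smul := fun u => Subtype.ext (by show ρ ((1 : Subgroup.zpowers x) : G) (u : V) = u; rw [OneMemClass.coe_one, map_one]; rfl)
        mul_smul := fun g g' u => Subtype.ext (rho_mul ρ _ _ _) }
    have hxp : IsPGroup r (Subgroup.zpowers x) := IsPGroup.of_card (n := 1) (by rw [Nat.card_zpowers, hx, pow_one])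
    have hone : Nat.card (MulAction.fixedPoints (Subgroup.zpowers x) U) = 1 := by
      rw [Nat.card_eq_one_iff_exists]
      refine ⟨⟨0, fun g => Subtype.ext (map_zero (ρ (g : G)))⟩, fun u => Subtype.ext (Subtype.ext ?_)⟩
      exact hfix _ u.1.2 (congrArg Subtype.val (u.2 ⟨x, Subgroup.mem_zpowers x⟩))
    have hmod := hxp.card_modEq_card_fixedPoints U
    rw [hone, Module.natCard_eq_pow_finrank (K := ZMod q), Nat.card_zmod] at hmod
    have h1 : (q : ZMod r) ^ Module.finrank (ZMod q) U = 1 := by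
      have := (ZMod.natCast_eq_natCast_iff _ _ _).2 hmod
      push_cast at this
      exact this
    obtain ⟨c, hc⟩ := hqr ▸ orderOf_dvd_of_pow_eq_one h1
    rcases c with _ | _ | c
    · left; rw [hc, mul_zero]
    · right; rw [hc, zero_add, mul_one]
    · have := Submodule.finrank_le U
      rcases Nat.eq_zero_or_pos (Module.finrank (ZMod q) V) with h0 | h0
      · left; omega
      · exfalso; nlinarith
  have hx1 : ρ x ≠ 1 := fun e => by
    have : x = 1 := hρ (e.trans (map_one ρ).symm)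
    rw [this, orderOf_one] at hx
    exact (Fact.out : r.Prime).ne_one hx.symm
  -- no fixed vectors
  have hnofix : ∀ u : V, ρ x u = u → u = 0 := by
    have hfin : Module.finrank (ZMod q) (LinearMap.ker (ρ x - 1)) = 0 := by
      set U := LinearMap.ker (ρ x - 1)
      -- the fixed space has size congruent to that of the space
      letI : MulAction (Subgroup.zpowers x) V :=
        { smul := fun g v => ρ (g : G) v
          one_smul := fun v => by show ρ ((1 : Subgroup.zpowers x) : G) v = v; rw [OneMemClass.coe_one, map_one]; rfl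
          mul_smul := fun g g' v => rho_mul ρ _ _ v }
      have hxp : IsPGroup r (Subgroup.zpowers x) := IsPGroup.of_card (n := 1) (by rw [Nat.card_zpowers, hx, pow_one])
      have hfixeq : Nat.card (MulAction.fixedPoints (Subgroup.zpowers x) V) = Nat.card U := by
        refine Nat.card_congr (Equiv.subtypeEquivRight fun v => ?_)
        constructor
        · intro hv
          show (ρ x - 1) v = 0
          rw [LinearMap.sub_apply, sub_eq_zero]
          exact hv ⟨x, Subgroup.mem_zpowers x⟩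
        · intro hv g
          have hv' : ρ x v = v := by
            have : (ρ x - 1) v = 0 := hv
            rwa [LinearMap.sub_apply, sub_eq_zero] at this
          show ρ (g : G) v = v
          obtain ⟨k, hk⟩ := (mem_powers_iff_mem_zpowers.2 g.2 : (g : G) ∈ Submonoid.powers x)
          rw [← hk]
          show ρ (x ^ k) v = v
          clear hk
          induction k with
          | zero => rw [pow_zero, map_one]; rfl
          | succ k ih => rw [pow_succ', rho_mul, ih, hv']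
      have hmod := hxp.card_modEq_card_fixedPoints V
      rw [hfixeq, card_space (q := q), Module.natCard_eq_pow_finrank (K := ZMod q) (V := U), Nat.card_zmod] at hmod
      have h1 : (q : ZMod r) ^ Module.finrank (ZMod q) U = 1 := by
        have := (ZMod.natCast_eq_natCast_iff _ _ _).2 hmod
        push_cast at this
        rw [← hqr, pow_orderOf_eq_one] at this
        exact this.symm
      obtain ⟨c, hc⟩ := hqr ▸ orderOf_dvd_of_pow_eq_one h1
      by_contra hU0
      have hle := Submodule.finrank_le U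
      have hUn : Module.finrank (ZMod q) U = Module.finrank (ZMod q) V := by
        rcases c with _ | _ | c
        · rw [hc, mul_zero] at hU0; exact absurd rfl hU0
        · rw [hc, zero_add, mul_one]
        · nlinarith
      have htop : U = ⊤ := Submodule.eq_top_of_finrank_eq hUn
      refine hx1 (LinearMap.ext fun v => ?_)
      have : v ∈ U := htop ▸ Submodule.mem_top
      rw [LinearMap.mem_ker, LinearMap.sub_apply, sub_eq_zero] at this
      exact this
    intro u hu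
    have : u ∈ LinearMap.ker (ρ x - 1) := by simp [hu]
    rw [Submodule.finrank_eq_zero.1 hfin] at this
    exact this
  -- the algebra of x is transitive on a vector
  obtain ⟨v, hv⟩ := exists_ne (0 : V)
  set S := env ρ (Subgroup.zpowers x) with hS
  let U : Submodule (ZMod q) V := (Subalgebra.toSubmodule S).map (LinearMap.applyₗ v)
  have hUtop : ∀ w : V, ∃ a ∈ S, a v = w := by
    intro w
    have hUx : ∀ u ∈ U, ρ x u ∈ U := by
      rintro _ ⟨a, ha, rfl⟩
      exact ⟨ρ x * a, (show ρ x * a ∈ S from mul_mem (mem_env ρ (Subgroup.mem_zpowers x)) (show a ∈ S from ha)), rfl⟩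
    rcases key U hUx (fun u _ => hnofix u) with h0 | h0
    · exfalso
      have hvU : v ∈ U := ⟨1, one_mem S, rfl⟩
      rw [Submodule.finrank_eq_zero.1 h0, Submodule.mem_bot] at hvU
      exact hv hvU
    · have : w ∈ U := (Submodule.eq_top_of_finrank_eq h0) ▸ Submodule.mem_top
      exact this
  have hS' : ∀ f : E, f * ρ x = ρ x * f → ∀ a ∈ S, f * a = a * f := fun f hf => env_le_centralizer ρ (by
    intro a ha
    obtain ⟨k, hk⟩ := (mem_powers_iff_mem_zpowers.2 ha : a ∈ Submonoid.powers x)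
    rw [← hk]
    show f * ρ (x ^ k) = ρ (x ^ k) * f
    rw [map_pow]
    exact ((show Commute f (ρ x) from hf).pow_right k).eq)
  have hmem : ∀ f : E, f * ρ x = ρ x * f → f ∈ S := by
    intro f hf
    obtain ⟨a, ha, hav⟩ := hUtop (f v)
    have : f = a := LinearMap.ext fun w => by
      obtain ⟨b, hb, rfl⟩ := hUtop w
      rw [← Module.End.mul_apply, hS' f hf b hb, Module.End.mul_apply, ← hav, ← Module.End.mul_apply,
        env_comm ρ (fun c hc e he => by
          obtain ⟨i, rfl⟩ := Subgroup.mem_zpowers_iff.1 hc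
          obtain ⟨l, rfl⟩ := Subgroup.mem_zpowers_iff.1 he
          exact ((Commute.refl x).zpow_zpow i l).eq) b hb a ha, Module.End.mul_apply]
    exact this ▸ ha
  apply hρ
  rw [map_mul, map_mul]
  exact env_comm ρ (fun c hc e he => by
    obtain ⟨i, rfl⟩ := Subgroup.mem_zpowers_iff.1 hc
    obtain ⟨l, rfl⟩ := Subgroup.mem_zpowers_iff.1 he
    exact ((Commute.refl x).zpow_zpow i l).eq) _ (hmem _ (by rw [← map_mul, ← map_mul, hy]))
    _ (hmem _ (by rw [← map_mul, ← map_mul, hy']))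

end CfsgLib.Huppert
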